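import Mathlib
import Cfsg.Agent.Lib.helper6.GL2Syl2
import Cfsg.Agent.Lib.helper12.DkRec

set_option autoImplicit false

namespace Cfsg.Agent.Lib.helper6

open Matrix QuadraticAlgebra Cfsg.Agent.Lib.helper12

theorem mem_isometryGroup_iff {ι : Type} [Fintype ι] [DecidableEq ι] {F : Type*} [Field F]
    (Q : (ι → F) → F) (g : GL ι F) :
    g ∈ Cfsg.isometryGroup F Q ↔ ∀ u : ι → F, Q ((g : Matrix ι ι F) *ᵥ u) = Q u := by
  constructor
  · intro h u
    exact h u u
  · intro h u v
    exact h u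

/-- reindexing the isometry group of a form -/
theorem isometryGroup_reindex {κ ι : Type} [Fintype κ] [DecidableEq κ] [Fintype ι] [DecidableEq ι]
    {F : Type*} [Field F] (e : κ ≃ ι) (Q : (ι → F) → F) :
    Nonempty (Cfsg.isometryGroup F (fun u : κ → F => Q (u ∘ e.symm)) ≃* Cfsg.isometryGroup F Q) := by
  let Φ : GL κ F ≃* GL ι F := Units.mapEquiv (Matrix.reindexAlgEquiv F F e).toMulEquiv
  have hΦ : ∀ g : GL κ F, ((Φ g : GL ι F) : Matrix ι ι F) =
      (g : Matrix κ κ F).submatrix e.symm e.symm := fun g => rfl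
  have key : ∀ g₀ : GL κ F, Φ g₀ ∈ Cfsg.isometryGroup F Q ↔
      g₀ ∈ Cfsg.isometryGroup F (fun u : κ → F => Q (u ∘ e.symm)) := by
    intro g₀
    rw [mem_isometryGroup_iff, mem_isometryGroup_iff]
    constructor
    · intro h u
      have h1 := h (u ∘ e.symm)
      rw [hΦ, Matrix.submatrix_mulVec_equiv] at h1
      have e1 : (u ∘ e.symm) ∘ (e.symm.symm : κ → ι) = u := by
        funext i; simp
      rw [e1] at h1
      exact h1
    · intro h u
      have h1 := h (u ∘ e)
      rw [hΦ, Matrix.submatrix_mulVec_equiv]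
      have e1 : (u ∘ e) ∘ (e.symm : ι → κ) = u := by
        funext i; simp
      simp only [Equiv.symm_symm]
      rw [h1, e1]
  have h : (Cfsg.isometryGroup F (fun u : κ → F => Q (u ∘ e.symm))).map Φ.toMonoidHom =
      Cfsg.isometryGroup F Q := by
    ext g
    rw [Subgroup.mem_map_equiv, ← key (Φ.symm g), Φ.apply_symm_apply]
  exact ⟨(Φ.subgroupMap _).trans (MulEquiv.subgroupCongr h)⟩

section
variable {F : Type*} [Field F]

/-- the binary quadratic form -/
def Q2 (A B : F) (w : Fin 2 → F) : F := w 0 ^ 2 + A * w 0 * w 1 + B * w 1 ^ 2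

/-- vectors as elements of the quadratic algebra -/
def vecE (A B : F) (w : Fin 2 → F) : QuadraticAlgebra F (-B) A := ⟨w 0, w 1⟩

theorem Q2_eq_norm (A B : F) (w : Fin 2 → F) :
    Q2 A B w = QuadraticAlgebra.norm (vecE A B w) := by
  rw [QuadraticAlgebra.norm_def]
  simp only [Q2, vecE]
  ring

theorem vecE_qaMat (A B : F) (z : QuadraticAlgebra F (-B) A) (w : Fin 2 → F) :
    vecE A B (qaMat z *ᵥ w) = z * vecE A B w := by
  ext <;> simp [vecE, qaMat, Matrix.mulVec, dotProduct, Fin.sum_univ_two] <;> ring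

theorem vecE_starMat (A B : F) (w : Fin 2 → F) :
    vecE A B (starMat A *ᵥ w) = star (vecE A B w) := by
  ext <;> simp [vecE, starMat, Matrix.mulVec, dotProduct, Fin.sum_univ_two]

theorem vecE_add (A B : F) (w w' : Fin 2 → F) :
    vecE A B (w + w') = vecE A B w + vecE A B w' := by
  ext <;> simp [vecE]

theorem vecE_col0 (A B : F) (M : Matrix (Fin 2) (Fin 2) F) :
    vecE A B (M *ᵥ ![1, 0]) = ⟨M 0 0, M 1 0⟩ := by
  ext <;> simp [vecE, Matrix.mulVec, dotProduct, Fin.sum_univ_two]

theorem vecE_col1 (A B : F) (M : Matrix (Fin 2) (Fin 2) F) :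
    vecE A B (M *ᵥ ![0, 1]) = ⟨M 0 1, M 1 1⟩ := by
  ext <;> simp [vecE, Matrix.mulVec, dotProduct, Fin.sum_univ_two]

theorem noRoot_of_aniso (A B : F)
    (hab : ∀ z₁ z₂ : F, z₁ ^ 2 + A * z₁ * z₂ + B * z₂ ^ 2 = 0 → z₁ = 0 ∧ z₂ = 0) :
    ∀ r : F, r ^ 2 ≠ -B + A * r := by
  intro r h
  have h1 := (hab r (-1) (by linear_combination h)).2
  exact one_ne_zero (by linear_combination -h1 : (1 : F) = 0)

end

theorem go2m_dihedral {F : Type*} [Field F] [Fintype F] (A B : F)
    (hab : ∀ z₁ z₂ : F, z₁ ^ 2 + A * z₁ * z₂ + B * z₂ ^ 2 = 0 → z₁ = 0 ∧ z₂ = 0) :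
    Nonempty (Cfsg.isometryGroup F (Q2 A B) ≃* DihedralGroup (Fintype.card F + 1)) := by
  classical
  haveI hfact : Fact (∀ r : F, r ^ 2 ≠ -B + A * r) := ⟨noRoot_of_aniso A B hab⟩
  haveI : Finite (QuadraticAlgebra F (-B) A) := qa_finite
  set q := Fintype.card F with hq
  have hq2 : 2 ≤ q := Fintype.one_lt_card
  set H := Cfsg.isometryGroup F (Q2 A B) with hH
  set ρ : (QuadraticAlgebra F (-B) A)ˣ →* GL (Fin 2) F := Units.map (qaHom (-B) A) with hρ
  have hρval : ∀ u : (QuadraticAlgebra F (-B) A)ˣ,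
      ((ρ u : GL (Fin 2) F) : Matrix (Fin 2) (Fin 2) F) = qaMat (u : QuadraticAlgebra F (-B) A) :=
    fun u => rfl
  have hρinj : Function.Injective ρ := Units.map_injective qaMat_injective
  -- norm one units
  have hnorm_pow : ∀ u : (QuadraticAlgebra F (-B) A)ˣ,
      QuadraticAlgebra.norm (u : QuadraticAlgebra F (-B) A) = 1 ↔ u ^ (q + 1) = 1 := by
    intro u
    have h1 := qa_pow_card_add_one (u : QuadraticAlgebra F (-B) A)
    constructor
    · intro h
      apply Units.ext
      rw [Units.val_pow_eq_pow_val, h1, h, map_one, Units.val_one]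
    · intro h
      have h2 : ((u ^ (q + 1) : (QuadraticAlgebra F (-B) A)ˣ) : QuadraticAlgebra F (-B) A) = 1 := by
        rw [h, Units.val_one]
      rw [Units.val_pow_eq_pow_val, h1] at h2
      have h3 := congrArg QuadraticAlgebra.re h2
      simpa using h3
  -- membership of the torus
  have hmemρ : ∀ u : (QuadraticAlgebra F (-B) A)ˣ,
      QuadraticAlgebra.norm (u : QuadraticAlgebra F (-B) A) = 1 → ρ u ∈ H := by
    intro u hu
    rw [hH, mem_isometryGroup_iff]
    intro w
    rw [hρval, Q2_eq_norm, vecE_qaMat, map_mul, hu, one_mul, ← Q2_eq_norm]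
  set s : GL (Fin 2) F := starGL A with hs
  have hsval : ((s : GL (Fin 2) F) : Matrix (Fin 2) (Fin 2) F) = starMat A := rfl
  have hs_mem : s ∈ H := by
    rw [hH, mem_isometryGroup_iff]
    intro w
    rw [hsval, Q2_eq_norm, vecE_starMat, QuadraticAlgebra.norm_star, ← Q2_eq_norm]
  have hss : s * s = 1 := Units.ext (starMat_mul_self A)
  have hstar_inv : ∀ u : (QuadraticAlgebra F (-B) A)ˣ,
      QuadraticAlgebra.norm (u : QuadraticAlgebra F (-B) A) = 1 →
      star (u : QuadraticAlgebra F (-B) A) = ((u⁻¹ : (QuadraticAlgebra F (-B) A)ˣ) :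
        QuadraticAlgebra F (-B) A) := by
    intro u hu
    have h1 : (u : QuadraticAlgebra F (-B) A) * star (u : QuadraticAlgebra F (-B) A) = 1 := by
      rw [← QuadraticAlgebra.algebraMap_norm_eq_mul_star, hu, map_one]
    exact (Units.inv_eq_of_mul_eq_one_right h1).symm
  have hconj : ∀ u : (QuadraticAlgebra F (-B) A)ˣ,
      QuadraticAlgebra.norm (u : QuadraticAlgebra F (-B) A) = 1 → s * ρ u * s = ρ u⁻¹ := by
    intro u hu
    apply Units.ext
    rw [Units.val_mul, Units.val_mul, hsval, hρval, hρval, starMat_conj, hstar_inv u hu]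
  -- classification
  have hclass : ∀ m : GL (Fin 2) F, m ∈ H → ∃ u : (QuadraticAlgebra F (-B) A)ˣ,
      QuadraticAlgebra.norm (u : QuadraticAlgebra F (-B) A) = 1 ∧ (m = ρ u ∨ m = ρ u * s) := by
    intro m hm
    rw [hH, mem_isometryGroup_iff] at hm
    set M : Matrix (Fin 2) (Fin 2) F := (m : Matrix (Fin 2) (Fin 2) F) with hM
    set u₀ : QuadraticAlgebra F (-B) A := vecE A B (M *ᵥ ![1, 0]) with hu₀
    have hu₀n : QuadraticAlgebra.norm u₀ = 1 := by
      rw [hu₀, ← Q2_eq_norm, hm]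
      simp [Q2]
    have hu₀0 : u₀ ≠ 0 := by
      intro h
      rw [h, QuadraticAlgebra.norm_zero] at hu₀n
      exact zero_ne_one hu₀n
    set u : (QuadraticAlgebra F (-B) A)ˣ := Units.mk0 u₀ hu₀0 with hu
    have huval : (u : QuadraticAlgebra F (-B) A) = u₀ := rfl
    have hinvn : QuadraticAlgebra.norm (u₀⁻¹) = 1 := by
      have h1 : QuadraticAlgebra.norm (u₀⁻¹) * QuadraticAlgebra.norm u₀ = 1 := by
        rw [← map_mul, inv_mul_cancel₀ hu₀0, map_one]
      rw [hu₀n, mul_one] at h1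
      exact h1
    set M' : Matrix (Fin 2) (Fin 2) F := qaMat (u₀⁻¹) * M with hM'
    have hM'v : ∀ w : Fin 2 → F, vecE A B (M' *ᵥ w) = u₀⁻¹ * vecE A B (M *ᵥ w) := by
      intro w
      rw [hM', ← Matrix.mulVec_mulVec, vecE_qaMat]
    have hc0 : vecE A B (M' *ᵥ ![1, 0]) = 1 := by
      rw [hM'v, ← hu₀, inv_mul_cancel₀ hu₀0]
    set w₁ : QuadraticAlgebra F (-B) A := vecE A B (M' *ᵥ ![0, 1]) with hw₁
    have hw₁n : QuadraticAlgebra.norm w₁ = B := by
      rw [hw₁, hM'v, map_mul, hinvn, one_mul, ← Q2_eq_norm, hm]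
      simp [Q2]
    have hw₁n' : QuadraticAlgebra.norm (1 + w₁) = 1 + A + B := by
      have e1 : (![1, 1] : Fin 2 → F) = ![1, 0] + ![0, 1] := by
        funext i; fin_cases i <;> simp
      have e2 : 1 + w₁ = vecE A B (M' *ᵥ ![1, 1]) := by
        rw [e1, Matrix.mulVec_add, vecE_add, hc0]
      rw [e2, hM'v, map_mul, hinvn, one_mul, ← Q2_eq_norm, hm]
      simp [Q2]
    have e1 : w₁.re ^ 2 + A * w₁.re * w₁.im + B * w₁.im ^ 2 = B := by
      rw [QuadraticAlgebra.norm_def] at hw₁n
      linear_combination hw₁n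
    have e2 : (1 + w₁.re) ^ 2 + A * (1 + w₁.re) * w₁.im + B * w₁.im ^ 2 = 1 + A + B := by
      rw [QuadraticAlgebra.norm_def] at hw₁n'
      simp only [QuadraticAlgebra.re_add, QuadraticAlgebra.im_add, QuadraticAlgebra.re_one,
        QuadraticAlgebra.im_one, zero_add] at hw₁n'
      linear_combination hw₁n'
    have hfac : (w₁ - (ω : QuadraticAlgebra F (-B) A)) * (w₁ - star (ω : QuadraticAlgebra F (-B) A)) = 0 := by
      ext
      · simp
        linear_combination w₁.re * e2 - (1 + w₁.re) * e1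
      · simp
        linear_combination w₁.im * e2 - w₁.im * e1
    have hcol0 := vecE_col0 A B M'
    rw [hc0] at hcol0
    have h00 : M' 0 0 = 1 := by
      have := congrArg QuadraticAlgebra.re hcol0
      simpa using this.symm
    have h10 : M' 1 0 = 0 := by
      have := congrArg QuadraticAlgebra.im hcol0
      simpa using this.symm
    have hcol1 := vecE_col1 A B M'
    have hMM' : M = qaMat u₀ * M' := by
      rw [hM', ← Matrix.mul_assoc, ← qaMat_mul, mul_inv_cancel₀ hu₀0, qaMat_one, Matrix.one_mul]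
    refine ⟨u, hu₀n, ?_⟩
    rcases mul_eq_zero.mp hfac with h | h
    · left
      have hw : w₁ = ω := sub_eq_zero.mp h
      rw [← hw₁, hw] at hcol1
      have h01 : M' 0 1 = 0 := by
        have := congrArg QuadraticAlgebra.re hcol1
        simpa using this.symm
      have h11 : M' 1 1 = 1 := by
        have := congrArg QuadraticAlgebra.im hcol1
        simpa using this.symm
      have hM'1 : M' = 1 := by
        ext i j
        fin_cases i <;> fin_cases j
        · simpa using h00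
        · simpa using h01
        · simpa using h10
        · simpa using h11
      apply Units.ext
      rw [hρval, huval, ← hM, hMM', hM'1, Matrix.mul_one]
    · right
      have hw : w₁ = star (ω : QuadraticAlgebra F (-B) A) := sub_eq_zero.mp h
      rw [← hw₁, hw] at hcol1
      have h01 : M' 0 1 = A := by
        have := congrArg QuadraticAlgebra.re hcol1
        simpa using this.symm
      have h11 : M' 1 1 = -1 := by
        have := congrArg QuadraticAlgebra.im hcol1
        simpa using this.symm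
      have hM'1 : M' = starMat A := by
        ext i j
        fin_cases i <;> fin_cases j
        · simpa [starMat] using h00
        · simpa [starMat] using h01
        · simpa [starMat] using h10
        · simpa [starMat] using h11
      apply Units.ext
      rw [Units.val_mul, hρval, huval, hsval, ← hM, hMM', hM'1]
  -- the norm one group
  set K : Subgroup (QuadraticAlgebra F (-B) A)ˣ :=
    (powMonoidHom (q + 1) : (QuadraticAlgebra F (-B) A)ˣ →* (QuadraticAlgebra F (-B) A)ˣ).ker with hK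
  have hKmem : ∀ u : (QuadraticAlgebra F (-B) A)ˣ,
      u ∈ K ↔ QuadraticAlgebra.norm (u : QuadraticAlgebra F (-B) A) = 1 := by
    intro u
    rw [hnorm_pow, hK, MonoidHom.mem_ker, powMonoidHom_apply]
  have hKcard : Nat.card K = q + 1 := by
    obtain ⟨ζ, hζ⟩ := IsCyclic.exists_generator (α := (QuadraticAlgebra F (-B) A)ˣ)
    have hord : orderOf ζ = q ^ 2 - 1 := by
      rw [orderOf_eq_card_of_forall_mem_zpowers hζ, Nat.card_units, qa_card]
    have hq21 : q ^ 2 - 1 = (q - 1) * (q + 1) := by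
      obtain ⟨j, hj⟩ : ∃ j, q = j + 2 := ⟨q - 2, by omega⟩
      rw [hj]
      have : (j + 2) ^ 2 = (j + 2 - 1) * (j + 2 + 1) + 1 := by
        rw [show j + 2 - 1 = j + 1 from rfl]; ring
      omega
    have hq1 : q - 1 ≠ 0 := by omega
    have hu₁ : orderOf (ζ ^ (q - 1)) = q + 1 := by
      rw [orderOf_pow_of_dvd hq1 (by rw [hord, hq21]; exact dvd_mul_right _ _), hord, hq21,
        Nat.mul_div_cancel_left _ (Nat.pos_of_ne_zero hq1)]
    have hKeq : K = Subgroup.zpowers (ζ ^ (q - 1)) := by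
      apply le_antisymm
      · intro u hu
        rw [hK, MonoidHom.mem_ker, powMonoidHom_apply] at hu
        obtain ⟨k, rfl⟩ := Subgroup.mem_zpowers_iff.mp (hζ u)
        rw [← zpow_natCast, ← _root_.zpow_mul] at hu
        have h1 := (orderOf_dvd_iff_zpow_eq_one).mpr hu
        rw [hord, hq21] at h1
        have h2 : ((q - 1 : ℕ) : ℤ) ∣ k := by
          have h3 : (((q - 1) * (q + 1) : ℕ) : ℤ) ∣ k * ((q + 1 : ℕ) : ℤ) := h1
          rw [Nat.cast_mul] at h3
          exact Int.dvd_of_mul_dvd_mul_right (by positivity) h3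
        obtain ⟨j, rfl⟩ := h2
        rw [Subgroup.mem_zpowers_iff]
        exact ⟨j, by rw [← zpow_natCast, ← _root_.zpow_mul]⟩
      · rw [Subgroup.zpowers_le, hK, MonoidHom.mem_ker, powMonoidHom_apply, ← pow_mul, ← hq21, ← hord,
          pow_orderOf_eq_one]
    rw [hKeq, Nat.card_zpowers, hu₁]
  -- the cyclic subgroup of `H`
  let ρH : K →* H := (ρ.comp K.subtype).codRestrict H (fun u => hmemρ u ((hKmem u).mp u.2))
  have hρH : ∀ u : K, ((ρH u : H) : GL (Fin 2) F) = ρ (u : (QuadraticAlgebra F (-B) A)ˣ) := fun u => rfl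
  have hρHinj : Function.Injective ρH := by
    intro u v h
    have h1 : ρ (u : (QuadraticAlgebra F (-B) A)ˣ) = ρ (v : (QuadraticAlgebra F (-B) A)ˣ) := by
      rw [← hρH, ← hρH, h]
    exact Subtype.ext (hρinj h1)
  set C : Subgroup H := ρH.range with hC
  have hCmem : ∀ x : H, x ∈ C ↔ ∃ u : (QuadraticAlgebra F (-B) A)ˣ,
      QuadraticAlgebra.norm (u : QuadraticAlgebra F (-B) A) = 1 ∧ (x : GL (Fin 2) F) = ρ u := by
    intro x
    constructor
    · rintro ⟨u, rfl⟩
      exact ⟨u, (hKmem u).mp u.2, rfl⟩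
    · rintro ⟨u, hu, hx⟩
      exact ⟨⟨u, (hKmem u).mpr hu⟩, Subtype.ext hx.symm⟩
  have hCcyc : IsCyclic C := isCyclic_of_surjective ρH.rangeRestrict ρH.rangeRestrict_surjective
  have hCcard : Nat.card C = q + 1 := by
    rw [← hKcard]
    exact (Nat.card_congr (MonoidHom.ofInjective hρHinj).toEquiv).symm
  set sH : H := ⟨s, hs_mem⟩ with hsH
  have hsC : sH ∉ C := by
    intro h
    obtain ⟨v, hv, hx⟩ := (hCmem sH).mp h
    have hmat : starMat A = qaMat (v : QuadraticAlgebra F (-B) A) := by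
      rw [← hρval, ← hx]
      rfl
    have h00 := congrFun (congrFun hmat 0) 0
    have h10 := congrFun (congrFun hmat 1) 0
    have h01 := congrFun (congrFun hmat 0) 1
    have h11 := congrFun (congrFun hmat 1) 1
    simp [starMat, qaMat] at h00 h10 h01 h11
    rw [← h10] at h01 h11
    rw [← h00] at h11
    have hA : A = 0 := by simpa using h01
    have h2 : (2 : F) = 0 := by
      have : (-1 : F) = 1 := by simpa using h11
      linear_combination -this
    have hinj : Function.Injective (fun r : F => r ^ 2) := by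
      intro r t hrt
      have h3 : (r - t) ^ 2 = 0 := by
        have h4 : r ^ 2 = t ^ 2 := hrt
        linear_combination h4 - r * t * h2 + t ^ 2 * h2
      exact sub_eq_zero.mp ((pow_eq_zero_iff (two_ne_zero)).mp h3)
    obtain ⟨r, hr⟩ := (Finite.injective_iff_surjective.mp hinj) (-B)
    apply hfact.out r
    have hr' : r ^ 2 = -B := hr
    rw [hr', hA]; ring
  have hidx : C.index = 2 := by
    rw [Subgroup.index_eq_two_iff]
    refine ⟨sH, fun b => ?_⟩
    obtain ⟨u, hu, hb | hb⟩ := hclass (b : GL (Fin 2) F) b.2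
    · right
      have hbC : b ∈ C := (hCmem b).mpr ⟨u, hu, hb⟩
      refine ⟨hbC, fun h => hsC ?_⟩
      have : sH = b⁻¹ * (b * sH) := by group
      rw [this]
      exact C.mul_mem (C.inv_mem hbC) h
    · left
      have hbs : b * sH ∈ C := by
        rw [hCmem]
        refine ⟨u, hu, ?_⟩
        show (b : GL (Fin 2) F) * s = ρ u
        rw [hb, mul_assoc, hss, mul_one]
      refine ⟨hbs, fun h => hsC ?_⟩
      have : sH = b⁻¹ * (b * sH) := by group
      rw [this]
      exact C.mul_mem (C.inv_mem h) hbs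
  have hrel : ∀ x : H, x ∉ C → x * x = 1 ∧ ∀ c ∈ C, x * c * x⁻¹ = c⁻¹ := by
    intro x hx
    obtain ⟨u, hu, hb | hb⟩ := hclass (x : GL (Fin 2) F) x.2
    · exact absurd ((hCmem x).mpr ⟨u, hu, hb⟩) hx
    · have hxx : (x : GL (Fin 2) F) * (x : GL (Fin 2) F) = 1 := by
        rw [hb]
        calc ρ u * s * (ρ u * s) = ρ u * (s * ρ u * s) := by group
          _ = 1 := by rw [hconj u hu, map_inv, mul_inv_cancel]
      have hxx' : x * x = 1 := Subtype.ext hxx
      have hxinv : x⁻¹ = x := inv_eq_of_mul_eq_one_left hxx'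
      refine ⟨hxx', fun c hc => ?_⟩
      obtain ⟨v, hv, hcv⟩ := (hCmem c).mp hc
      rw [hxinv]
      apply Subtype.ext
      show (x : GL (Fin 2) F) * (c : GL (Fin 2) F) * (x : GL (Fin 2) F) = (c : GL (Fin 2) F)⁻¹
      rw [hb, hcv]
      have hvu : QuadraticAlgebra.norm ((v * u : (QuadraticAlgebra F (-B) A)ˣ) :
          QuadraticAlgebra F (-B) A) = 1 := by
        rw [Units.val_mul, map_mul, hv, hu, one_mul]
      calc ρ u * s * ρ v * (ρ u * s) = ρ u * (s * ρ (v * u) * s) := by
            rw [map_mul]; group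
        _ = ρ u * ρ (v * u)⁻¹ := by rw [hconj (v * u) hvu]
        _ = (ρ v)⁻¹ := by
            rw [← map_mul, ← map_inv]
            congr 1
            rw [_root_.mul_inv_rev, mul_inv_cancel_left]
  obtain ⟨e⟩ := dihedral_rec C hCcyc hidx hrel
  rw [hCcard] at e
  exact ⟨e⟩

theorem go2m_dihedral' {F : Type*} [Field F] [Fintype F] {q : ℕ} (hF : Fintype.card F = q) (a b : F)
    (hab : ∀ z₁ z₂ : F, z₁ ^ 2 + a * z₁ * z₂ + b * z₂ ^ 2 = 0 → z₁ = 0 ∧ z₂ = 0) :
    Nonempty (Cfsg.isometryGroup F (Cfsg.quadFormMinus 0 F a b) ≃* DihedralGroup (q + 1)) := by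
  obtain ⟨e₁⟩ := go2m_dihedral a b hab
  rw [hF] at e₁
  let e : Fin 2 ≃ (Fin 0 ⊕ Fin 0) ⊕ Fin 2 := (Equiv.emptySum (Fin 0 ⊕ Fin 0) (Fin 2)).symm
  obtain ⟨e₂⟩ := isometryGroup_reindex (F := F) e (Cfsg.quadFormMinus 0 F a b)
  have hQ : (fun u : Fin 2 → F => Cfsg.quadFormMinus 0 F a b (u ∘ e.symm)) = Q2 a b := by
    funext u
    simp [Cfsg.quadFormMinus, Q2, e]
  rw [hQ] at e₂
  exact ⟨e₂.symm.trans e₁⟩

end Cfsg.Agent.Lib.helper6
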