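import Mathlib
import Cfsg.Agent.Lib.helper6.QCount

set_option autoImplicit false

namespace Cfsg.Agent.Lib.helper6

section
variable {F : Type*} [Field F]

/-- polar of a function -/
def pol {V : Type*} [AddCommGroup V] (Q : V → F) (u v : V) : F := Q (u + v) - Q u - Q v

/-- regular quadratic function -/
structure RegQuad {V : Type*} [AddCommGroup V] [Module F V] (Q : V → F) : Prop where
  add : ∀ u v v' : V, pol Q u (v + v') = pol Q u v + pol Q u v'
  smul : ∀ (c : F) (u v : V), pol Q u (c • v) = c * pol Q u v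
  sq : ∀ (c : F) (u : V), Q (c • u) = c ^ 2 * Q u
  reg : ∀ u : V, Q u = 0 → (∀ v, pol Q u v = 0) → u = 0

variable {V : Type*} [AddCommGroup V] [Module F V] {Q : V → F}

theorem pol_comm (Q : V → F) (u v : V) : pol Q u v = pol Q v u := by
  unfold pol; rw [add_comm]; ring

theorem RegQuad.zero (h : RegQuad Q) : Q 0 = 0 := by
  have := h.sq 0 0
  rw [zero_smul] at this
  rw [this]; ring

theorem RegQuad.pol_zero (h : RegQuad Q) (u : V) : pol Q u 0 = 0 := by
  unfold pol; rw [add_zero, h.zero]; ring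

theorem RegQuad.zero_pol (h : RegQuad Q) (u : V) : pol Q 0 u = 0 := by
  rw [pol_comm, h.pol_zero]

theorem RegQuad.add_left (h : RegQuad Q) (u u' v : V) :
    pol Q (u + u') v = pol Q u v + pol Q u' v := by
  rw [pol_comm, h.add, pol_comm Q v u, pol_comm Q v u']

theorem RegQuad.smul_left (h : RegQuad Q) (c : F) (u v : V) :
    pol Q (c • u) v = c * pol Q u v := by
  rw [pol_comm, h.smul, pol_comm]

theorem RegQuad.neg (h : RegQuad Q) (u : V) : Q (-u) = Q u := by
  have := h.sq (-1) u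
  rw [neg_one_smul] at this
  rw [this]; ring

theorem RegQuad.pol_neg (h : RegQuad Q) (u v : V) : pol Q u (-v) = -pol Q u v := by
  have := h.smul (-1) u v
  rw [neg_one_smul] at this
  rw [this]; ring

theorem RegQuad.pol_self (h : RegQuad Q) (u : V) : pol Q u u = 2 * Q u := by
  unfold pol
  have h1 : u + u = (2 : F) • u := by rw [two_smul]
  rw [h1, h.sq]; ring

theorem Q_add (Q : V → F) (u v : V) : Q (u + v) = Q u + Q v + pol Q u v := by
  unfold pol; ring

/-- the hyperbolic extension -/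
def hypQ (Q : V → F) (p : V × F × F) : F := Q p.1 + p.2.1 * p.2.2

theorem hypQ_mk (Q : V → F) (u : V) (x y : F) : hypQ Q (u, x, y) = Q u + x * y := rfl

theorem pol_hypQ (Q : V → F) (p p' : V × F × F) :
    pol (hypQ Q) p p' = pol Q p.1 p'.1 + p.2.1 * p'.2.2 + p'.2.1 * p.2.2 := by
  unfold pol hypQ
  simp only [Prod.fst_add, Prod.snd_add]
  ring

theorem RegQuad.hyp (h : RegQuad Q) : RegQuad (hypQ Q) where
  add := by
    intro p p₁ p₂
    rw [pol_hypQ, pol_hypQ, pol_hypQ]
    simp only [Prod.fst_add, Prod.snd_add]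
    rw [h.add]; ring
  smul := by
    intro c p p₁
    rw [pol_hypQ, pol_hypQ]
    simp only [Prod.smul_fst, Prod.smul_snd, smul_eq_mul]
    rw [h.smul]; ring
  sq := by
    intro c p
    unfold hypQ
    simp only [Prod.smul_fst, Prod.smul_snd, smul_eq_mul]
    rw [h.sq]; ring
  reg := by
    rintro ⟨u, x, y⟩ hq hp
    have h1 := hp (0, 1, 0)
    have h2 := hp (0, 0, 1)
    rw [pol_hypQ] at h1 h2
    simp only [h.pol_zero, mul_zero, mul_one, one_mul, zero_mul, add_zero, zero_add] at h1 h2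
    subst h1 h2
    have h3 : ∀ v, pol Q u v = 0 := by
      intro v
      have := hp (v, 0, 0)
      rw [pol_hypQ] at this
      simpa using this
    have h4 : Q u = 0 := by
      rw [hypQ_mk] at hq
      simpa using hq
    rw [h.reg u h4 h3]
    rfl

end

section
variable {F : Type*} [Field F] {V : Type*} [AddCommGroup V] [Module F V] {Q : V → F}

/-- isometries -/
def IsIso (Q : V → F) (g : V ≃ₗ[F] V) : Prop := ∀ v, Q (g v) = Q v

theorem IsIso.pol {g : V ≃ₗ[F] V} (hg : IsIso Q g) (u v : V) : pol Q (g u) (g v) = pol Q u v := by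
  unfold Cfsg.Agent.Lib.helper6.pol
  rw [← map_add, hg, hg, hg]

theorem IsIso.trans {g g' : V ≃ₗ[F] V} (hg : IsIso Q g) (hg' : IsIso Q g') :
    IsIso Q (g.trans g') := fun v => by
  rw [LinearEquiv.trans_apply, hg', hg]

theorem IsIso.symm {g : V ≃ₗ[F] V} (hg : IsIso Q g) : IsIso Q g.symm := fun v => by
  have := hg (g.symm v)
  rw [LinearEquiv.apply_symm_apply] at this
  exact this.symm

/-- Siegel transformation -/
def siegel (h : RegQuad Q) (w : V) : (V × F × F) ≃ₗ[F] (V × F × F) where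
  toFun p := (p.1 + p.2.2 • w, p.2.1 - pol Q p.1 w - Q w * p.2.2, p.2.2)
  map_add' p p' := by
    refine Prod.ext ?_ (Prod.ext ?_ ?_)
    · simp only [Prod.fst_add, Prod.snd_add]
      module
    · simp only [Prod.fst_add, Prod.snd_add]
      rw [h.add_left]; ring
    · rfl
  map_smul' c p := by
    refine Prod.ext ?_ (Prod.ext ?_ ?_)
    · simp only [Prod.smul_fst, Prod.smul_snd, smul_eq_mul, RingHom.id_apply]
      module
    · simp only [Prod.smul_fst, Prod.smul_snd, smul_eq_mul, RingHom.id_apply]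
      rw [h.smul_left]; ring
    · rfl
  invFun p := (p.1 - p.2.2 • w, p.2.1 + pol Q p.1 w - Q w * p.2.2, p.2.2)
  left_inv p := by
    refine Prod.ext ?_ (Prod.ext ?_ ?_)
    · simp only
      module
    · simp only
      rw [h.add_left, h.smul_left, h.pol_self]; ring
    · rfl
  right_inv p := by
    refine Prod.ext ?_ (Prod.ext ?_ ?_)
    · simp only
      module
    · simp only
      have e : p.1 - p.2.2 • w = p.1 + (-p.2.2) • w := by module
      rw [e, h.add_left, h.smul_left, h.pol_self]; ring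
    · rfl

theorem siegel_apply (h : RegQuad Q) (w : V) (p : V × F × F) :
    siegel h w p = (p.1 + p.2.2 • w, p.2.1 - pol Q p.1 w - Q w * p.2.2, p.2.2) := rfl

theorem siegel_iso (h : RegQuad Q) (w : V) : IsIso (hypQ Q) (siegel h w) := by
  intro p
  rw [siegel_apply, hypQ_mk, Q_add Q p.1 (p.2.2 • w), h.sq, h.smul]
  unfold hypQ
  ring

/-- swap of the hyperbolic pair -/
def hswap : (V × F × F) ≃ₗ[F] (V × F × F) where
  toFun p := (p.1, p.2.2, p.2.1)
  map_add' p p' := rfl
  map_smul' c p := rfl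
  invFun p := (p.1, p.2.2, p.2.1)
  left_inv p := rfl
  right_inv p := rfl

theorem hswap_apply (p : V × F × F) : (hswap : (V × F × F) ≃ₗ[F] (V × F × F)) p = (p.1, p.2.2, p.2.1) := rfl

theorem hswap_iso : IsIso (hypQ Q) (hswap : (V × F × F) ≃ₗ[F] (V × F × F)) := by
  intro p
  rw [hswap_apply]
  unfold hypQ
  ring

/-- scaling of the hyperbolic pair -/
def hscale (c : F) (hc : c ≠ 0) : (V × F × F) ≃ₗ[F] (V × F × F) where
  toFun p := (p.1, c * p.2.1, c⁻¹ * p.2.2)
  map_add' p p' := by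
    refine Prod.ext rfl (Prod.ext ?_ ?_)
    · simp only [Prod.snd_add, Prod.fst_add]; ring
    · simp only [Prod.snd_add]; ring
  map_smul' d p := by
    refine Prod.ext rfl (Prod.ext ?_ ?_)
    · simp only [Prod.smul_snd, Prod.smul_fst, smul_eq_mul, RingHom.id_apply]; ring
    · simp only [Prod.smul_snd, smul_eq_mul, RingHom.id_apply]; ring
  invFun p := (p.1, c⁻¹ * p.2.1, c * p.2.2)
  left_inv p := by
    refine Prod.ext rfl (Prod.ext ?_ ?_)
    · simp only; field_simp
    · simp only; field_simp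
  right_inv p := by
    refine Prod.ext rfl (Prod.ext ?_ ?_)
    · simp only; field_simp
    · simp only; field_simp

theorem hscale_apply (c : F) (hc : c ≠ 0) (p : V × F × F) :
    (hscale c hc : (V × F × F) ≃ₗ[F] (V × F × F)) p = (p.1, c * p.2.1, c⁻¹ * p.2.2) := rfl

theorem hscale_iso (c : F) (hc : c ≠ 0) :
    IsIso (hypQ Q) (hscale c hc : (V × F × F) ≃ₗ[F] (V × F × F)) := by
  intro p
  rw [hscale_apply]
  unfold hypQ
  simp only
  field_simp

theorem exists_iso_e_aux (h : RegQuad Q) (p : V × F × F) (hy : p.2.2 ≠ 0) (hp : hypQ Q p = 0) :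
    ∃ g : (V × F × F) ≃ₗ[F] (V × F × F), IsIso (hypQ Q) g ∧ g (0, 1, 0) = p := by
  obtain ⟨u, x, y⟩ := p
  simp only at hy
  rw [hypQ_mk] at hp
  refine ⟨(hscale y hy).trans (hswap.trans (siegel h (y⁻¹ • u))),
    (hscale_iso y hy).trans (hswap_iso.trans (siegel_iso h _)), ?_⟩
  rw [LinearEquiv.trans_apply, LinearEquiv.trans_apply, hscale_apply, hswap_apply, siegel_apply]
  refine Prod.ext ?_ (Prod.ext ?_ ?_)
  · simp only
    rw [smul_smul, mul_one, mul_inv_cancel₀ hy, one_smul, zero_add]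
  · simp only [mul_zero, mul_one]
    rw [h.zero_pol, h.sq]
    field_simp
    linear_combination (-1 : F) * hp
  · simp

theorem exists_iso_e (h : RegQuad Q) (p : V × F × F) (hp0 : p ≠ 0) (hp : hypQ Q p = 0) :
    ∃ g : (V × F × F) ≃ₗ[F] (V × F × F), IsIso (hypQ Q) g ∧ g (0, 1, 0) = p := by
  by_cases hy : p.2.2 = 0
  · obtain ⟨u, x, y⟩ := p
    simp only at hy
    subst hy
    rw [hypQ_mk, mul_zero, add_zero] at hp
    obtain ⟨w, hw⟩ : ∃ w, pol Q u w + x ≠ 0 := by
      by_cases hx : x = 0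
      · subst hx
        by_contra hcon
        push Not at hcon
        have hu : u = 0 := h.reg u hp (fun v => by simpa using hcon v)
        apply hp0
        rw [hu]
        rfl
      · exact ⟨0, by rw [h.pol_zero, zero_add]; exact hx⟩
    have he'' : hypQ Q (w, -Q w, 1) = 0 := by rw [hypQ_mk]; ring
    obtain ⟨g₁, hg₁, hg₁e⟩ := exists_iso_e_aux h (w, -Q w, 1) one_ne_zero he''
    set p₃ := g₁.symm (u, x, 0) with hp₃
    have hpol : pol (hypQ Q) ((0, 1, 0) : V × F × F) p₃ = pol Q u w + x := by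
      rw [← hg₁.pol, hg₁e, hp₃, LinearEquiv.apply_symm_apply, pol_hypQ]
      simp only [mul_zero, add_zero, one_mul]
      rw [pol_comm]
      ring
    have hp₃y : p₃.2.2 ≠ 0 := by
      rw [pol_hypQ] at hpol
      simp only [h.zero_pol, one_mul, mul_zero, add_zero, zero_add] at hpol
      rw [hpol]
      exact hw
    have hp₃q : hypQ Q p₃ = 0 := by
      rw [hp₃, hg₁.symm, hypQ_mk, hp]; ring
    obtain ⟨g₃, hg₃, hg₃e⟩ := exists_iso_e_aux h p₃ hp₃y hp₃q
    refine ⟨g₃.trans g₁, hg₃.trans hg₁, ?_⟩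
    rw [LinearEquiv.trans_apply, hg₃e, hp₃, LinearEquiv.apply_symm_apply]
  · exact exists_iso_e_aux h p hy hp

end


section
variable {F : Type*} [Field F] {V : Type*} [AddCommGroup V] [Module F V] {Q : V → F}

theorem finite_linEquiv [Finite V] : Finite (V ≃ₗ[F] V) :=
  Finite.of_injective (fun g : V ≃ₗ[F] V => (g : V → V)) DFunLike.coe_injective

theorem siegel_e (h : RegQuad Q) (w : V) :
    siegel h w ((0, 1, 0) : V × F × F) = (0, 1, 0) := by
  rw [siegel_apply]
  refine Prod.ext ?_ (Prod.ext ?_ ?_)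
  · simp
  · simp [h.zero_pol]
  · rfl

theorem siegel_f (h : RegQuad Q) (w : V) :
    siegel h w ((0, 0, 1) : V × F × F) = (w, -Q w, 1) := by
  rw [siegel_apply]
  refine Prod.ext ?_ (Prod.ext ?_ ?_)
  · simp
  · simp [h.zero_pol]
  · rfl

theorem pol_e (h : RegQuad Q) (p : V × F × F) :
    pol (hypQ Q) ((0, 1, 0) : V × F × F) p = p.2.2 := by
  rw [pol_hypQ]; simp [h.zero_pol]

theorem pol_f (h : RegQuad Q) (p : V × F × F) :
    pol (hypQ Q) ((0, 0, 1) : V × F × F) p = p.2.1 := by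
  rw [pol_hypQ]; simp [h.zero_pol]

theorem hypQ_e (h : RegQuad Q) : hypQ Q ((0, 1, 0) : V × F × F) = 0 := by
  rw [hypQ_mk, h.zero]; ring

theorem hypQ_f (h : RegQuad Q) : hypQ Q ((0, 0, 1) : V × F × F) = 0 := by
  rw [hypQ_mk, h.zero]; ring

theorem exists_iso_pair (h : RegQuad Q) (e' f' : V × F × F) (he : hypQ Q e' = 0)
    (hf : hypQ Q f' = 0) (hef : pol (hypQ Q) e' f' = 1) :
    ∃ g : (V × F × F) ≃ₗ[F] (V × F × F), IsIso (hypQ Q) g ∧ g (0, 1, 0) = e' ∧
      g (0, 0, 1) = f' := by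
  have he0 : e' ≠ 0 := by
    rintro rfl
    rw [h.hyp.zero_pol] at hef
    exact zero_ne_one hef
  obtain ⟨g₁, hg₁, hg₁e⟩ := exists_iso_e h e' he0 he
  set f'' := g₁.symm f' with hf''
  have h1 : pol (hypQ Q) ((0, 1, 0) : V × F × F) f'' = 1 := by
    rw [← hg₁.pol, hg₁e, hf'', LinearEquiv.apply_symm_apply, hef]
  rw [pol_e h] at h1
  have h2 : hypQ Q f'' = 0 := by rw [hf'', hg₁.symm, hf]
  have h3 : f'' = (f''.1, -Q f''.1, 1) := by
    refine Prod.ext rfl (Prod.ext ?_ h1)
    unfold hypQ at h2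
    rw [h1, mul_one] at h2
    simp only
    linear_combination h2
  refine ⟨(siegel h f''.1).trans g₁, (siegel_iso h _).trans hg₁, ?_, ?_⟩
  · rw [LinearEquiv.trans_apply, siegel_e, hg₁e]
  · rw [LinearEquiv.trans_apply, siegel_f, ← h3, hf'', LinearEquiv.apply_symm_apply]

theorem stab_fst (h : RegQuad Q) (g : (V × F × F) ≃ₗ[F] (V × F × F)) (hg : IsIso (hypQ Q) g)
    (he : g (0, 1, 0) = (0, 1, 0)) (hf : g (0, 0, 1) = (0, 0, 1)) (u : V) :
    g (u, 0, 0) = ((g (u, 0, 0)).1, 0, 0) := by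
  refine Prod.ext rfl (Prod.ext ?_ ?_)
  · have := hg.pol (0, 0, 1) (u, 0, 0)
    rw [hf, pol_f h, pol_f h] at this
    exact this
  · have := hg.pol (0, 1, 0) (u, 0, 0)
    rw [he, pol_e h, pol_e h] at this
    exact this

theorem stab_inv (h : RegQuad Q) (g g' : (V × F × F) ≃ₗ[F] (V × F × F))
    (hg' : IsIso (hypQ Q) g')
    (he : g' (0, 1, 0) = (0, 1, 0)) (hf : g' (0, 0, 1) = (0, 0, 1)) (hgg : ∀ p, g (g' p) = p)
    (u : V) : (g ((g' (u, 0, 0)).1, 0, 0)).1 = u := by
  rw [← stab_fst h g' hg' he hf u, hgg]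

theorem decomp3 (p : V × F × F) :
    p = (p.1, 0, 0) + (p.2.1 • ((0, 1, 0) : V × F × F) + p.2.2 • ((0, 0, 1) : V × F × F)) := by
  refine Prod.ext ?_ (Prod.ext ?_ ?_) <;> simp

theorem card_stab (h : RegQuad Q) :
    Nat.card {g : {g : (V × F × F) ≃ₗ[F] (V × F × F) // IsIso (hypQ Q) g} //
      g.1 (0, 1, 0) = (0, 1, 0) ∧ g.1 (0, 0, 1) = (0, 0, 1)} =
    Nat.card {g : V ≃ₗ[F] V // IsIso Q g} := by
  symm
  apply Nat.card_congr
  refine Equiv.ofBijective (fun k => ⟨⟨LinearEquiv.prodCongr k.1 (LinearEquiv.refl F (F × F)),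
    ?_⟩, ?_, ?_⟩) ⟨?_, ?_⟩
  · intro p
    rw [LinearEquiv.prodCongr_apply]
    unfold hypQ
    simp only [LinearEquiv.refl_apply]
    rw [k.2]
  · rw [LinearEquiv.prodCongr_apply]
    simp
  · rw [LinearEquiv.prodCongr_apply]
    simp
  · intro k k' hkk
    have h1 := congrArg (fun z => z.1.1) hkk
    simp only at h1
    apply Subtype.ext
    apply LinearEquiv.ext
    intro u
    have h2 := congrArg (fun z => (z (u, 0, 0)).1) h1
    simpa [LinearEquiv.prodCongr_apply] using h2
  · rintro ⟨⟨g, hg⟩, he, hf⟩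
    simp only at he hf
    have he' : g.symm (0, 1, 0) = (0, 1, 0) := by rw [LinearEquiv.symm_apply_eq, he]
    have hf' : g.symm (0, 0, 1) = (0, 0, 1) := by rw [LinearEquiv.symm_apply_eq, hf]
    set A : V →ₗ[F] V := (LinearMap.fst F V (F × F)).comp
      (g.toLinearMap.comp (LinearMap.inl F V (F × F))) with hA
    set B : V →ₗ[F] V := (LinearMap.fst F V (F × F)).comp
      (g.symm.toLinearMap.comp (LinearMap.inl F V (F × F))) with hB
    have hAu : ∀ u, A u = (g (u, 0, 0)).1 := fun u => rfl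
    have hBu : ∀ u, B u = (g.symm (u, 0, 0)).1 := fun u => rfl
    have hAB : A.comp B = LinearMap.id := by
      apply LinearMap.ext
      intro u
      rw [LinearMap.comp_apply, hAu, hBu, LinearMap.id_apply]
      exact stab_inv h g g.symm hg.symm he' hf' (fun p => g.apply_symm_apply p) u
    have hBA : B.comp A = LinearMap.id := by
      apply LinearMap.ext
      intro u
      rw [LinearMap.comp_apply, hAu, hBu, LinearMap.id_apply]
      exact stab_inv h g.symm g hg he hf (fun p => g.symm_apply_apply p) u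
    have hk : IsIso Q (LinearEquiv.ofLinearMap A B hAB hBA) := by
      intro u
      have h1 := hg (u, 0, 0)
      rw [stab_fst h g hg he hf u, hypQ_mk, hypQ_mk] at h1
      simp only [mul_zero, add_zero] at h1
      exact h1
    refine ⟨⟨LinearEquiv.ofLinearMap A B hAB hBA, hk⟩, ?_⟩
    apply Subtype.ext
    apply Subtype.ext
    apply LinearEquiv.ext
    intro p
    simp only
    rw [LinearEquiv.prodCongr_apply]
    conv_rhs => rw [decomp3 p, map_add, map_add, map_smul, map_smul, he, hf,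
      stab_fst h g hg he hf p.1]
    refine Prod.ext ?_ (Prod.ext ?_ ?_)
    · simp [hAu]
    · simp
    · simp

theorem card_iso_hyp_pairs [Finite V] [Finite F] (h : RegQuad Q) :
    Nat.card {g : (V × F × F) ≃ₗ[F] (V × F × F) // IsIso (hypQ Q) g} =
      Nat.card {pr : (V × F × F) × (V × F × F) // hypQ Q pr.1 = 0 ∧ hypQ Q pr.2 = 0 ∧
        pol (hypQ Q) pr.1 pr.2 = 1} * Nat.card {g : V ≃ₗ[F] V // IsIso Q g} := by
  haveI : Finite ((V × F × F) ≃ₗ[F] (V × F × F)) := finite_linEquiv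
  set φ : {g : (V × F × F) ≃ₗ[F] (V × F × F) // IsIso (hypQ Q) g} →
      {pr : (V × F × F) × (V × F × F) // hypQ Q pr.1 = 0 ∧ hypQ Q pr.2 = 0 ∧
        pol (hypQ Q) pr.1 pr.2 = 1} := fun g => ⟨(g.1 (0, 1, 0), g.1 (0, 0, 1)), by
          simp only
          rw [g.2, hypQ_e h], by
          simp only
          rw [g.2, hypQ_f h], by
          simp only
          rw [g.2.pol, pol_e h]⟩ with hφ
  apply h6_card_fiber_count φ
  rintro ⟨⟨e', f'⟩, he, hf, hef⟩
  simp only at he hf hef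
  obtain ⟨g₀, hg₀, hg₀e, hg₀f⟩ := exists_iso_pair h e' f' he hf hef
  rw [← card_stab h]
  apply Nat.card_congr
  refine
    { toFun := fun g => ⟨⟨g.1.1.trans g₀.symm, g.1.2.trans hg₀.symm⟩, ?_, ?_⟩
      invFun := fun g => ⟨⟨g.1.1.trans g₀, g.1.2.trans hg₀⟩, ?_⟩
      left_inv := ?_
      right_inv := ?_ }
  · have h1 := congrArg (fun z => z.1.1) g.2
    simp only [hφ] at h1
    simp only
    rw [LinearEquiv.trans_apply, h1, LinearEquiv.symm_apply_eq, hg₀e]
  · have h1 := congrArg (fun z => z.1.2) g.2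
    simp only [hφ] at h1
    simp only
    rw [LinearEquiv.trans_apply, h1, LinearEquiv.symm_apply_eq, hg₀f]
  · rw [hφ]
    apply Subtype.ext
    simp only
    rw [LinearEquiv.trans_apply, LinearEquiv.trans_apply, g.2.1, g.2.2, hg₀e, hg₀f]
  · intro g
    apply Subtype.ext
    apply Subtype.ext
    apply LinearEquiv.ext
    intro p
    simp
  · intro g
    apply Subtype.ext
    apply Subtype.ext
    apply LinearEquiv.ext
    intro p
    simp

theorem card_pairs [Finite V] [Finite F] (h : RegQuad Q) :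
    Nat.card {pr : (V × F × F) × (V × F × F) // hypQ Q pr.1 = 0 ∧ hypQ Q pr.2 = 0 ∧
        pol (hypQ Q) pr.1 pr.2 = 1} =
      (Nat.card {p : V × F × F // hypQ Q p = 0} - 1) * Nat.card V := by
  have hS : Nat.card {p : V × F × F // p ≠ 0 ∧ hypQ Q p = 0} =
      Nat.card {p : V × F × F // hypQ Q p = 0} - 1 := by
    have h1 : {p : V × F × F | p ≠ 0 ∧ hypQ Q p = 0} = {p : V × F × F | hypQ Q p = 0} \ {0} := by
      ext p
      simp only [Set.mem_setOf_eq, Set.mem_diff, Set.mem_singleton_iff]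
      tauto
    have h2 : (0 : V × F × F) ∈ {p : V × F × F | hypQ Q p = 0} := h.hyp.zero
    have h3 := Set.ncard_sdiff_singleton_of_mem h2
    rw [← h1, ← Nat.card_coe_set_eq, ← Nat.card_coe_set_eq] at h3
    exact h3
  rw [← hS]
  set ψ : {pr : (V × F × F) × (V × F × F) // hypQ Q pr.1 = 0 ∧ hypQ Q pr.2 = 0 ∧
        pol (hypQ Q) pr.1 pr.2 = 1} → {p : V × F × F // p ≠ 0 ∧ hypQ Q p = 0} :=
    fun pr => ⟨pr.1.1, by
      intro h0
      have := pr.2.2.2
      rw [h0, h.hyp.zero_pol] at this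
      exact zero_ne_one this, pr.2.1⟩ with hψ
  apply h6_card_fiber_count ψ
  rintro ⟨e', he0, he⟩
  obtain ⟨g₀, hg₀, hg₀e⟩ := exists_iso_e h e' he0 he
  apply Nat.card_congr
  refine
    { toFun := fun pr => (g₀.symm pr.1.1.2).1
      invFun := fun w => ⟨⟨(e', g₀ (w, -Q w, 1)), he, ?_, ?_⟩, ?_⟩
      left_inv := ?_
      right_inv := ?_ }
  · simp only
    rw [hg₀, hypQ_mk]; ring
  · simp only
    rw [← hg₀e, hg₀.pol, pol_e h]
  · rw [hψ]
  · rintro ⟨⟨⟨e₁, f₁⟩, he₁, hf₁, hef₁⟩, hpr⟩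
    have h1 : e₁ = e' := congrArg Subtype.val hpr
    subst h1
    apply Subtype.ext
    apply Subtype.ext
    simp only
    refine Prod.ext rfl ?_
    simp only
    rw [← LinearEquiv.eq_symm_apply]
    set f'' := g₀.symm f₁ with hf''
    have h1 : pol (hypQ Q) ((0, 1, 0) : V × F × F) f'' = 1 := by
      rw [← hg₀.pol, hg₀e, hf'', LinearEquiv.apply_symm_apply]
      exact hef₁
    rw [pol_e h] at h1
    have h2 : hypQ Q f'' = 0 := by rw [hf'', hg₀.symm]; exact hf₁
    refine Prod.ext rfl (Prod.ext ?_ h1.symm)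
    unfold hypQ at h2
    rw [h1, mul_one] at h2
    simp only
    linear_combination -h2
  · intro w
    simp

/-- the recursion for orders of isometry groups along a hyperbolic plane -/
theorem card_iso_hyp [Finite V] [Finite F] (h : RegQuad Q) :
    Nat.card {g : (V × F × F) ≃ₗ[F] (V × F × F) // IsIso (hypQ Q) g} =
      Nat.card {g : V ≃ₗ[F] V // IsIso Q g} *
        ((Nat.card {p : V × F × F // hypQ Q p = 0} - 1) * Nat.card V) := by
  rw [card_iso_hyp_pairs h, card_pairs h, mul_comm]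

end

end Cfsg.Agent.Lib.helper6
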