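import Mathlib
import Cfsg.Agent.Lib.helper6.HypRec
import Cfsg.Agent.Lib.helper6.GO2m

set_option autoImplicit false

namespace Cfsg.Agent.Lib.helper6

open Matrix

section
variable {F : Type*} [Field F]

theorem card_isometryGroup_eq {ι : Type} [Fintype ι] [DecidableEq ι] (Q : (ι → F) → F) :
    Nat.card ↥(Cfsg.isometryGroup F Q) =
      Nat.card {g : (ι → F) ≃ₗ[F] (ι → F) // IsIso Q g} := by
  let Φ : GL ι F ≃* ((ι → F) ≃ₗ[F] (ι → F)) :=
    (Matrix.GeneralLinearGroup.toLin).trans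
      (LinearMap.GeneralLinearGroup.generalLinearEquiv F (ι → F))
  have hΦ : ∀ (g : GL ι F) (v : ι → F), Φ g v = (g : Matrix ι ι F) *ᵥ v := by
    intro g v
    simp [Φ, Matrix.GeneralLinearGroup.toLin]
  apply Nat.card_congr
  refine Φ.toEquiv.subtypeEquiv (fun g => ?_)
  rw [mem_isometryGroup_iff]
  constructor
  · intro h v
    have := h v
    rw [← hΦ] at this
    exact this
  · intro h v
    have := h v
    rw [← hΦ]
    exact this

variable {V W : Type*} [AddCommGroup V] [Module F V] [AddCommGroup W] [Module F W]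

theorem card_iso_congr (φ : V ≃ₗ[F] W) (Q : V → F) (Q' : W → F) (hQ : ∀ v, Q' (φ v) = Q v) :
    Nat.card {g : V ≃ₗ[F] V // IsIso Q g} = Nat.card {g : W ≃ₗ[F] W // IsIso Q' g} := by
  have hQ' : ∀ w, Q (φ.symm w) = Q' w := fun w => by rw [← hQ, LinearEquiv.apply_symm_apply]
  apply Nat.card_congr
  exact
    { toFun := fun g => ⟨φ.symm.trans (g.1.trans φ), fun w => by
        simp only [LinearEquiv.trans_apply]
        rw [hQ, g.2, hQ']⟩
      invFun := fun g => ⟨φ.trans (g.1.trans φ.symm), fun v => by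
        simp only [LinearEquiv.trans_apply]
        rw [hQ', g.2, hQ]⟩
      left_inv := fun g => Subtype.ext (LinearEquiv.ext fun v => by simp)
      right_inv := fun g => Subtype.ext (LinearEquiv.ext fun v => by simp) }

theorem card_zero_congr (φ : V ≃ₗ[F] W) (Q : V → F) (Q' : W → F) (hQ : ∀ v, Q' (φ v) = Q v) :
    Nat.card {v : V // Q v = 0} = Nat.card {w : W // Q' w = 0} :=
  Nat.card_congr (φ.toEquiv.subtypeEquiv (fun v => by rw [LinearEquiv.coe_toEquiv, hQ]))

theorem RegQuad.congr (φ : V ≃ₗ[F] W) {Q : V → F} {Q' : W → F} (hQ : ∀ v, Q' (φ v) = Q v)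
    (h : RegQuad Q) : RegQuad Q' := by
  have hpol : ∀ w w', pol Q' w w' = pol Q (φ.symm w) (φ.symm w') := by
    intro w w'
    unfold pol
    rw [← hQ, ← hQ, ← hQ, map_add, LinearEquiv.apply_symm_apply, LinearEquiv.apply_symm_apply]
  have hQ' : ∀ w, Q' w = Q (φ.symm w) := fun w => by rw [← hQ, LinearEquiv.apply_symm_apply]
  refine ⟨?_, ?_, ?_, ?_⟩
  · intro u v v'; rw [hpol, hpol, hpol, map_add, h.add]
  · intro c u v; rw [hpol, hpol, map_smul, h.smul]
  · intro c u; rw [hQ', hQ', map_smul, h.sq]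
  · intro u hu hp
    have h1 := h.reg (φ.symm u) (by rw [← hQ']; exact hu) (fun v => by
      have := hp (φ v)
      rw [hpol, LinearEquiv.symm_apply_apply] at this
      exact this)
    exact (LinearEquiv.map_eq_zero_iff φ.symm).mp h1

/-- generic form: `R` plus `m` hyperbolic planes -/
def Qgen {τ : Type} (m : ℕ) (R : (τ → F) → F) (v : τ ⊕ (Fin m ⊕ Fin m) → F) : F :=
  R (fun t => v (Sum.inl t)) + ∑ i : Fin m, v (Sum.inr (Sum.inl i)) * v (Sum.inr (Sum.inr i))

/-- the linear equivalence adding a hyperbolic plane -/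
def addHyp (τ : Type) (m : ℕ) :
    ((τ ⊕ (Fin m ⊕ Fin m) → F) × F × F) ≃ₗ[F] (τ ⊕ (Fin (m + 1) ⊕ Fin (m + 1)) → F) where
  toFun p := Sum.elim (fun t => p.1 (Sum.inl t))
    (Sum.elim (Fin.snoc (α := fun _ => F) (fun i => p.1 (Sum.inr (Sum.inl i))) p.2.1)
      (Fin.snoc (α := fun _ => F) (fun i => p.1 (Sum.inr (Sum.inr i))) p.2.2))
  map_add' p p' := by
    funext j
    rcases j with t | i | i
    · rfl
    · refine Fin.lastCases ?_ (fun i => ?_) i <;> simp
    · refine Fin.lastCases ?_ (fun i => ?_) i <;> simp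
  map_smul' c p := by
    funext j
    rcases j with t | i | i
    · rfl
    · refine Fin.lastCases ?_ (fun i => ?_) i <;> simp
    · refine Fin.lastCases ?_ (fun i => ?_) i <;> simp
  invFun v := (Sum.elim (fun t => v (Sum.inl t))
    (Sum.elim (fun i => v (Sum.inr (Sum.inl i.castSucc)))
      (fun i => v (Sum.inr (Sum.inr i.castSucc)))),
    v (Sum.inr (Sum.inl (Fin.last m))), v (Sum.inr (Sum.inr (Fin.last m))))
  left_inv p := by
    refine Prod.ext ?_ (Prod.ext ?_ ?_)
    · funext j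
      rcases j with t | i | i <;> simp
    · simp
    · simp
  right_inv v := by
    funext j
    rcases j with t | i | i
    · rfl
    · refine Fin.lastCases ?_ (fun i => ?_) i <;> simp
    · refine Fin.lastCases ?_ (fun i => ?_) i <;> simp

theorem Qgen_addHyp {τ : Type} {m : ℕ} (R : (τ → F) → F) (p : (τ ⊕ (Fin m ⊕ Fin m) → F) × F × F) :
    Qgen (m + 1) R (addHyp τ m p) = hypQ (Qgen m R) p := by
  unfold Qgen hypQ
  rw [Fin.sum_univ_castSucc]
  simp [addHyp]
  ring

/-- base equivalence -/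
def baseEquiv (τ : Type) : (τ → F) ≃ₗ[F] (τ ⊕ (Fin 0 ⊕ Fin 0) → F) where
  toFun z := Sum.elim z (fun _ => 0)
  map_add' z z' := by
    funext j
    rcases j with t | i | i
    · rfl
    · exact i.elim0
    · exact i.elim0
  map_smul' c z := by
    funext j
    rcases j with t | i | i
    · rfl
    · exact i.elim0
    · exact i.elim0
  invFun v := fun t => v (Sum.inl t)
  left_inv z := rfl
  right_inv v := by
    funext j
    rcases j with t | i | i
    · rfl
    · exact i.elim0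
    · exact i.elim0

theorem Qgen_base {τ : Type} (R : (τ → F) → F) (z : τ → F) :
    Qgen 0 R (baseEquiv τ z) = R z := by
  unfold Qgen
  rw [Finset.univ_eq_empty, Finset.sum_empty, add_zero]
  rfl

theorem regQuad_Qgen {τ : Type} (R : (τ → F) → F) (h0 : RegQuad R) (m : ℕ) :
    RegQuad (Qgen m R) := by
  induction m with
  | zero => exact RegQuad.congr (baseEquiv τ) (Qgen_base R) h0
  | succ m ih => exact RegQuad.congr (addHyp τ m) (Qgen_addHyp R) ih.hyp

theorem card_iso_Qgen_zero {τ : Type} (R : (τ → F) → F) :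
    Nat.card {g : (τ ⊕ (Fin 0 ⊕ Fin 0) → F) ≃ₗ[F] (τ ⊕ (Fin 0 ⊕ Fin 0) → F) //
      IsIso (Qgen 0 R) g} = Nat.card {g : (τ → F) ≃ₗ[F] (τ → F) // IsIso R g} :=
  (card_iso_congr (baseEquiv τ) R (Qgen 0 R) (Qgen_base R)).symm

theorem card_iso_Qgen_succ {τ : Type} [Fintype τ] [Fintype F] (R : (τ → F) → F)
    (h0 : RegQuad R) (m : ℕ) :
    Nat.card {g : (τ ⊕ (Fin (m + 1) ⊕ Fin (m + 1)) → F) ≃ₗ[F]
        (τ ⊕ (Fin (m + 1) ⊕ Fin (m + 1)) → F) // IsIso (Qgen (m + 1) R) g} =
    Nat.card {g : (τ ⊕ (Fin m ⊕ Fin m) → F) ≃ₗ[F] (τ ⊕ (Fin m ⊕ Fin m) → F) //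
        IsIso (Qgen m R) g} *
      ((Nat.card {v : τ ⊕ (Fin (m + 1) ⊕ Fin (m + 1)) → F // Qgen (m + 1) R v = 0} - 1) *
        Fintype.card F ^ (Fintype.card τ + 2 * m)) := by
  classical
  rw [← card_iso_congr (addHyp τ m) (hypQ (Qgen m R)) (Qgen (m + 1) R) (Qgen_addHyp R),
    ← card_zero_congr (addHyp τ m) (hypQ (Qgen m R)) (Qgen (m + 1) R) (Qgen_addHyp R),
    card_iso_hyp (regQuad_Qgen R h0 m)]
  congr 2
  rw [Nat.card_eq_fintype_card, Fintype.card_fun, Fintype.card_sum, Fintype.card_sum,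
    Fintype.card_fin]
  congr 1
  omega

/-- reindexing -/
def reindexL {ι κ : Type} (e : κ ≃ ι) : (ι → F) ≃ₗ[F] (κ → F) := LinearEquiv.funCongrLeft F F e

theorem reindexL_apply {ι κ : Type} (e : κ ≃ ι) (v : ι → F) (k : κ) :
    reindexL e v k = v (e k) := rfl

end


/-! ### arithmetic -/

theorem arith_plus (q a : ℕ) (hq : 1 ≤ q) (ha : 1 ≤ a) :
    (q * a * a + q * a - a - 1) * (q * a + 1) = (a + 1) * (q * a * (q * a) - 1) := by
  have h0 : a ≤ q * a := Nat.le_mul_of_pos_left a hq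
  have h1 : 1 ≤ q * a * a := Nat.mul_pos (Nat.mul_pos hq ha) ha
  have h3 : 1 ≤ q * a * (q * a) := Nat.mul_pos (Nat.mul_pos hq ha) (Nat.mul_pos hq ha)
  have h4 : a ≤ q * a * a + q * a := by omega
  have h5 : 1 ≤ q * a * a + q * a - a := by omega
  zify [h3, h4, h5]
  ring

theorem arith_minus (q a : ℕ) (hq : 1 ≤ q) (ha : 1 ≤ a) :
    q * a * a + a - q * a - 1 = (q * a + 1) * (a - 1) := by
  have h0 : q * a ≤ q * a * a := Nat.le_mul_of_pos_right (q * a) ha
  have h1 : 1 ≤ q * a := Nat.mul_pos hq ha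
  have h4 : q * a ≤ q * a * a + a := by omega
  have h5 : 1 ≤ q * a * a + a - q * a := by omega
  zify [ha, h4, h5]
  ring

theorem arith_sq (b : ℕ) (hb : 1 ≤ b) : b * b - 1 = (b - 1) * (b + 1) := by
  have h1 : 1 ≤ b * b := Nat.mul_pos hb hb
  zify [hb, h1]
  ring

section
variable {F : Type*} [Field F] [Fintype F]

/-! ### plus type -/

/-- the zero form on the zero space -/
def Rplus : (Empty → F) → F := fun _ => 0

omit [Fintype F] in
theorem regQuad_Rplus : RegQuad (Rplus : (Empty → F) → F) where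
  add := by intro u v v'; simp [pol, Rplus]
  smul := by intro c u v; simp [pol, Rplus]
  sq := by intro c u; simp [Rplus]
  reg := by intro u _ _; exact Subsingleton.elim _ _

omit [Fintype F] in
theorem card_iso_Rplus :
    Nat.card {g : (Empty → F) ≃ₗ[F] (Empty → F) // IsIso Rplus g} = 1 := by
  rw [Nat.card_eq_one_iff_unique]
  exact ⟨⟨fun g g' => Subtype.ext (LinearEquiv.ext fun v => Subsingleton.elim _ _)⟩,
    ⟨⟨LinearEquiv.refl F _, fun v => rfl⟩⟩⟩

omit [Fintype F] in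
theorem quadPlus_reindex (m : ℕ) (v : Empty ⊕ (Fin m ⊕ Fin m) → F) :
    Cfsg.quadFormPlus m F (reindexL (Equiv.emptySum Empty (Fin m ⊕ Fin m)).symm v) =
      Qgen m Rplus v := by
  unfold Cfsg.quadFormPlus Qgen Rplus
  rw [zero_add]
  rfl

theorem card_plus_aux {q : ℕ} (hF : Fintype.card F = q) (m : ℕ) :
    Nat.card {g : (Empty ⊕ (Fin m ⊕ Fin m) → F) ≃ₗ[F] (Empty ⊕ (Fin m ⊕ Fin m) → F) //
      IsIso (Qgen m Rplus) g} * (q ^ m + 1) =
      2 * q ^ (m * (m - 1)) * ∏ i ∈ Finset.range m, (q ^ (2 * (i + 1)) - 1) := by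
  have hq : 1 ≤ q := by rw [← hF]; exact Fintype.card_pos
  induction m with
  | zero =>
    rw [card_iso_Qgen_zero, card_iso_Rplus]
    simp
  | succ m ih =>
    rw [card_iso_Qgen_succ Rplus regQuad_Rplus m,
      card_zero_congr (reindexL (Equiv.emptySum Empty (Fin (m + 1) ⊕ Fin (m + 1))).symm)
        (Qgen (m + 1) Rplus) (Cfsg.quadFormPlus (m + 1) F) (quadPlus_reindex (m + 1)),
      card_quadPlus_zero hF (m + 1) (by omega), hF, Finset.prod_range_succ]
    have ha : 1 ≤ q ^ m := Nat.one_le_pow _ _ hq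
    have key : (q ^ (2 * (m + 1) - 1) + q ^ (m + 1) - q ^ (m + 1 - 1) - 1) * (q ^ (m + 1) + 1) =
        (q ^ m + 1) * (q ^ (2 * (m + 1)) - 1) := by
      have e1 : q ^ (2 * (m + 1) - 1) = q * q ^ m * q ^ m := by
        rw [show 2 * (m + 1) - 1 = 1 + m + m by omega, pow_add, pow_add, pow_one]
      have e2 : q ^ (m + 1) = q * q ^ m := by rw [pow_succ]; ring
      have e3 : q ^ (2 * (m + 1)) = q * q ^ m * (q * q ^ m) := by
        rw [show 2 * (m + 1) = (m + 1) + (m + 1) by omega, pow_add, e2]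
      rw [e1, e3, e2, Nat.add_sub_cancel]
      exact arith_plus q (q ^ m) hq ha
    have hpow : q ^ ((m + 1) * (m + 1 - 1)) = q ^ (m * (m - 1)) * q ^ (2 * m) := by
      rw [← pow_add]
      congr 1
      rw [Nat.add_sub_cancel]
      cases m with
      | zero => rfl
      | succ n => rw [Nat.add_sub_cancel]; ring
    have hc : Fintype.card Empty + 2 * m = 2 * m := by simp
    rw [hc]
    set I' := Nat.card {g : (Empty ⊕ (Fin m ⊕ Fin m) → F) ≃ₗ[F] (Empty ⊕ (Fin m ⊕ Fin m) → F) //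
      IsIso (Qgen m Rplus) g} with hI'
    set X := q ^ (2 * (m + 1) - 1) + q ^ (m + 1) - q ^ (m + 1 - 1) - 1 with hX
    set Z := q ^ (2 * (m + 1)) - 1 with hZ
    set P := ∏ i ∈ Finset.range m, (q ^ (2 * (i + 1)) - 1) with hP
    calc I' * (X * q ^ (2 * m)) * (q ^ (m + 1) + 1)
        = I' * q ^ (2 * m) * (X * (q ^ (m + 1) + 1)) := by ring
      _ = I' * q ^ (2 * m) * ((q ^ m + 1) * Z) := by rw [key]
      _ = (I' * (q ^ m + 1)) * q ^ (2 * m) * Z := by ring
      _ = (2 * q ^ (m * (m - 1)) * P) * q ^ (2 * m) * Z := by rw [ih]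
      _ = 2 * q ^ ((m + 1) * (m + 1 - 1)) * (P * Z) := by rw [hpow]; ring

theorem card_GO_plus {q : ℕ} (hF : Fintype.card F = q) (m : ℕ) (hm : 1 ≤ m) :
    Nat.card (Cfsg.isometryGroup F (Cfsg.quadFormPlus m F)) =
      2 * q ^ (m * (m - 1)) * (q ^ m - 1) * ∏ i ∈ Finset.range (m - 1), (q ^ (2 * (i + 1)) - 1) := by
  have hq : 1 ≤ q := by rw [← hF]; exact Fintype.card_pos
  rw [card_isometryGroup_eq,
    ← card_iso_congr (reindexL (Equiv.emptySum Empty (Fin m ⊕ Fin m)).symm) (Qgen m Rplus)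
      (Cfsg.quadFormPlus m F) (quadPlus_reindex m)]
  have h1 := card_plus_aux hF m
  obtain ⟨k, rfl⟩ : ∃ k, m = k + 1 := ⟨m - 1, by omega⟩
  rw [Finset.prod_range_succ] at h1
  simp only [Nat.add_sub_cancel] at h1 ⊢
  have hb : 1 ≤ q ^ (k + 1) := Nat.one_le_pow _ _ hq
  have h2 : q ^ (2 * (k + 1)) - 1 = (q ^ (k + 1) - 1) * (q ^ (k + 1) + 1) := by
    rw [show 2 * (k + 1) = (k + 1) + (k + 1) by omega, pow_add]
    exact arith_sq _ hb
  rw [h2] at h1
  apply Nat.eq_of_mul_eq_mul_right (show 0 < q ^ (k + 1) + 1 by positivity)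
  rw [h1]
  ring

/-! ### minus type -/

/-- the binary form -/
def Rminus (a b : F) : (Fin 2 → F) → F := fun z => z 0 ^ 2 + a * z 0 * z 1 + b * z 1 ^ 2

omit [Fintype F] in
theorem regQuad_Rminus (a b : F)
    (hab : ∀ z₁ z₂ : F, z₁ ^ 2 + a * z₁ * z₂ + b * z₂ ^ 2 = 0 → z₁ = 0 ∧ z₂ = 0) :
    RegQuad (Rminus a b) where
  add := by
    intro u v v'
    simp only [pol, Rminus, Pi.add_apply]
    ring
  smul := by
    intro c u v
    simp only [pol, Rminus, Pi.add_apply, Pi.smul_apply, smul_eq_mul]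
    ring
  sq := by
    intro c u
    simp only [Rminus, Pi.smul_apply, smul_eq_mul]
    ring
  reg := by
    intro u hu _
    obtain ⟨h0, h1⟩ := hab (u 0) (u 1) hu
    funext i
    fin_cases i
    · exact h0
    · exact h1

omit [Fintype F] in
theorem quadMinus_reindex (k : ℕ) (a b : F) (v : Fin 2 ⊕ (Fin k ⊕ Fin k) → F) :
    Cfsg.quadFormMinus k F a b (reindexL (Equiv.sumComm (Fin k ⊕ Fin k) (Fin 2)) v) =
      Qgen k (Rminus a b) v := by
  unfold Cfsg.quadFormMinus Qgen Rminus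
  rw [add_comm]
  rfl

theorem card_minus_aux {q : ℕ} (hF : Fintype.card F = q) (a b : F)
    (hab : ∀ z₁ z₂ : F, z₁ ^ 2 + a * z₁ * z₂ + b * z₂ ^ 2 = 0 → z₁ = 0 ∧ z₂ = 0) (k : ℕ) :
    Nat.card {g : (Fin 2 ⊕ (Fin k ⊕ Fin k) → F) ≃ₗ[F] (Fin 2 ⊕ (Fin k ⊕ Fin k) → F) //
      IsIso (Qgen k (Rminus a b)) g} =
      2 * q ^ ((k + 1) * k) * (q ^ (k + 1) + 1) * ∏ i ∈ Finset.range k, (q ^ (2 * (i + 1)) - 1) := by
  have hq : 1 ≤ q := by rw [← hF]; exact Fintype.card_pos
  induction k with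
  | zero =>
    rw [card_iso_congr (reindexL (Equiv.sumComm (Fin 0 ⊕ Fin 0) (Fin 2))) (Qgen 0 (Rminus a b))
      (Cfsg.quadFormMinus 0 F a b) (quadMinus_reindex 0 a b), ← card_isometryGroup_eq]
    obtain ⟨e⟩ := go2m_dihedral' hF a b hab
    rw [Nat.card_congr e.toEquiv, DihedralGroup.nat_card]
    simp
  | succ k ih =>
    have hz : Nat.card {v : (Fin (k + 1) ⊕ Fin (k + 1)) ⊕ Fin 2 → F //
        Cfsg.quadFormMinus (k + 1) F a b v = 0} =
        q ^ (2 * (k + 2) - 1) + q ^ (k + 1) - q ^ (k + 2) :=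
      card_quadMinus_zero hF (k + 2) (by omega) a b hab
    rw [card_iso_Qgen_succ (Rminus a b) (regQuad_Rminus a b hab) k,
      card_zero_congr (reindexL (Equiv.sumComm (Fin (k + 1) ⊕ Fin (k + 1)) (Fin 2)))
        (Qgen (k + 1) (Rminus a b)) (Cfsg.quadFormMinus (k + 1) F a b)
        (quadMinus_reindex (k + 1) a b), hz, ih, hF, Finset.prod_range_succ, Fintype.card_fin]
    have ha : 1 ≤ q ^ (k + 1) := Nat.one_le_pow _ _ hq
    have key : q ^ (2 * (k + 2) - 1) + q ^ (k + 1) - q ^ (k + 2) - 1 =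
        (q ^ (k + 2) + 1) * (q ^ (k + 1) - 1) := by
      have e1 : q ^ (2 * (k + 2) - 1) = q * q ^ (k + 1) * q ^ (k + 1) := by
        rw [show 2 * (k + 2) - 1 = 1 + (k + 1) + (k + 1) by omega, pow_add, pow_add, pow_one]
      have e2 : q ^ (k + 2) = q * q ^ (k + 1) := by rw [pow_succ]; ring
      rw [e1, e2]
      exact arith_minus q (q ^ (k + 1)) hq ha
    have h2 : q ^ (2 * (k + 1)) - 1 = (q ^ (k + 1) - 1) * (q ^ (k + 1) + 1) := by
      rw [show 2 * (k + 1) = (k + 1) + (k + 1) by omega, pow_add]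
      exact arith_sq _ ha
    have hpow : q ^ ((k + 1 + 1) * (k + 1)) = q ^ ((k + 1) * k) * q ^ (2 + 2 * k) := by
      rw [← pow_add]
      congr 1
      ring
    rw [key, h2, hpow]
    ring

theorem card_GO_minus {q : ℕ} (hF : Fintype.card F = q) (m : ℕ) (hm : 1 ≤ m) (a b : F)
    (hab : ∀ z₁ z₂ : F, z₁ ^ 2 + a * z₁ * z₂ + b * z₂ ^ 2 = 0 → z₁ = 0 ∧ z₂ = 0) :
    Nat.card (Cfsg.isometryGroup F (Cfsg.quadFormMinus (m - 1) F a b)) =
      2 * q ^ (m * (m - 1)) * (q ^ m + 1) *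
        ∏ i ∈ Finset.range (m - 1), (q ^ (2 * (i + 1)) - 1) := by
  obtain ⟨k, rfl⟩ : ∃ k, m = k + 1 := ⟨m - 1, by omega⟩
  have h1 : Nat.card (Cfsg.isometryGroup F (Cfsg.quadFormMinus k F a b)) =
      2 * q ^ ((k + 1) * k) * (q ^ (k + 1) + 1) *
        ∏ i ∈ Finset.range k, (q ^ (2 * (i + 1)) - 1) := by
    rw [card_isometryGroup_eq,
      ← card_iso_congr (reindexL (Equiv.sumComm (Fin k ⊕ Fin k) (Fin 2))) (Qgen k (Rminus a b))
        (Cfsg.quadFormMinus k F a b) (quadMinus_reindex k a b)]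
    exact card_minus_aux hF a b hab k
  exact h1

/-! ### odd dimension -/

/-- the unary form -/
def Rodd : (Unit → F) → F := fun z => z () ^ 2

omit [Fintype F] in
theorem regQuad_Rodd : RegQuad (Rodd : (Unit → F) → F) where
  add := by
    intro u v v'
    simp only [pol, Rodd, Pi.add_apply]
    ring
  smul := by
    intro c u v
    simp only [pol, Rodd, Pi.add_apply, Pi.smul_apply, smul_eq_mul]
    ring
  sq := by
    intro c u
    simp only [Rodd, Pi.smul_apply, smul_eq_mul]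
    ring
  reg := by
    intro u hu _
    funext i
    have h1 : u () ^ 2 = 0 := hu
    exact pow_eq_zero_iff (two_ne_zero) |>.mp h1

omit [Fintype F] in
theorem quadOdd_eq (m : ℕ) : Cfsg.quadFormOdd m F = Qgen m Rodd := by
  funext v
  rfl

omit [Fintype F] in
theorem card_iso_Rodd (h2 : (2 : F) ≠ 0) :
    Nat.card {g : (Unit → F) ≃ₗ[F] (Unit → F) // IsIso Rodd g} = 2 := by
  have hcard : Nat.card {c : F // c ^ 2 = 1} = 2 := by
    have hs : {c : F | c ^ 2 = 1} = {1, -1} := by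
      ext c
      simp only [Set.mem_ofPred_eq, Set.mem_insert_iff, Set.mem_singleton_iff]
      rw [sq]
      exact mul_self_eq_one_iff
    have hne : (1 : F) ≠ -1 := by
      intro h
      apply h2
      linear_combination h
    have h3 := Set.ncard_pair hne
    rw [← hs, ← Nat.card_coe_set_eq] at h3
    exact h3
  rw [← hcard]
  apply Nat.card_congr
  exact
    { toFun := fun g => ⟨g.1 (fun _ => 1) (), by
        have := g.2 (fun _ => 1)
        simpa [Rodd] using this⟩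
      invFun := fun c => ⟨LinearEquiv.smulOfNeZero F (Unit → F) c.1 (by
          intro h0
          have := c.2
          rw [h0] at this
          simp at this), fun z => by
          simp [Rodd, LinearEquiv.smulOfNeZero_apply, mul_pow, c.2]⟩
      left_inv := fun g => by
        apply Subtype.ext
        apply LinearEquiv.ext
        intro z
        funext i
        have hz : z = z () • (fun _ => (1 : F)) := by funext j; simp
        simp only [LinearEquiv.smulOfNeZero_apply, Pi.smul_apply, smul_eq_mul]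
        conv_rhs => rw [hz, map_smul]
        simp [mul_comm]
      right_inv := fun c => by
        apply Subtype.ext
        simp [LinearEquiv.smulOfNeZero_apply] }

theorem card_GO_odd {q : ℕ} (hF : Fintype.card F = q) (hodd : Odd q) (m : ℕ) :
    Nat.card (Cfsg.isometryGroup F (Cfsg.quadFormOdd m F)) =
      2 * q ^ (m ^ 2) * ∏ i ∈ Finset.range m, (q ^ (2 * (i + 1)) - 1) := by
  have h2 : (2 : F) ≠ 0 := by
    apply Ring.two_ne_zero
    intro h
    have := (FiniteField.even_card_iff_char_two (F := F)).mp h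
    rw [hF] at this
    rw [Nat.odd_iff] at hodd
    omega
  rw [card_isometryGroup_eq, quadOdd_eq]
  induction m with
  | zero =>
    rw [card_iso_Qgen_zero, card_iso_Rodd h2]
    simp
  | succ m ih =>
    have hz := card_quadOdd_zero hF (m + 1)
    rw [quadOdd_eq] at hz
    rw [card_iso_Qgen_succ Rodd regQuad_Rodd m, ih, hz, hF, Finset.prod_range_succ,
      Fintype.card_unit]
    have hpow : q ^ ((m + 1) ^ 2) = q ^ (m ^ 2) * q ^ (1 + 2 * m) := by
      rw [← pow_add]
      congr 1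
      ring
    rw [hpow]
    ring

end

end Cfsg.Agent.Lib.helper6
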