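import Mathlib
import Cfsg.Agent.Lib.helper4.UFrames

set_option autoImplicit false

namespace Cfsg.Agent.Lib.helper6

open Matrix Cfsg.Agent.Lib.helper4

section
variable {F : Type*} [Field F]

/-- the standard alternating matrix -/
def Jm : Matrix (Fin 2) (Fin 2) F := !![0, 1; -1, 0]

theorem J_form (G : Matrix (Fin 2) (Fin 2) F) : Gᵀ * Jm * G = G.det • Jm := by
  ext i j
  fin_cases i <;> fin_cases j <;>
    simp [Jm, Matrix.mul_apply, Fin.sum_univ_two, Matrix.det_fin_two] <;> ring

theorem J_cancel (G H : Matrix (Fin 2) (Fin 2) F) (hdet : G.det = 1) (h : Gᵀ * Jm * H = Jm) :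
    H = G := by
  rw [Matrix.det_fin_two] at hdet
  have e1 : G 0 0 * H 1 0 - G 1 0 * H 0 0 = 0 := by
    have := congrFun (congrFun h 0) 0
    simp [Jm, Matrix.mul_apply, Fin.sum_univ_two] at this
    linear_combination this
  have e2 : G 0 0 * H 1 1 - G 1 0 * H 0 1 = 1 := by
    have := congrFun (congrFun h 0) 1
    simp [Jm, Matrix.mul_apply, Fin.sum_univ_two] at this
    linear_combination this
  have e3 : G 0 1 * H 1 0 - G 1 1 * H 0 0 = -1 := by
    have := congrFun (congrFun h 1) 0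
    simp [Jm, Matrix.mul_apply, Fin.sum_univ_two] at this
    linear_combination this
  have e4 : G 0 1 * H 1 1 - G 1 1 * H 0 1 = 0 := by
    have := congrFun (congrFun h 1) 1
    simp [Jm, Matrix.mul_apply, Fin.sum_univ_two] at this
    linear_combination this
  ext i j
  fin_cases i <;> fin_cases j
  · show H 0 0 = G 0 0
    linear_combination (-(G 0 0)) * e3 + (G 0 1) * e1 - (H 0 0) * hdet
  · show H 0 1 = G 0 1
    linear_combination (-(G 0 0)) * e4 + (G 0 1) * e2 - (H 0 1) * hdet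
  · show H 1 0 = G 1 0
    linear_combination (G 1 1) * e1 - (G 1 0) * e3 - (H 1 0) * hdet
  · show H 1 1 = G 1 1
    linear_combination (G 1 1) * e2 - (G 1 0) * e4 - (H 1 1) * hdet

theorem T_gram (δ δq ε εq : F) (hε : ε * εq = -1) :
    (!![1, δq; ε, ε * δ] : Matrix (Fin 2) (Fin 2) F)ᵀ * !![1, δ; εq, εq * δq] =
      (δ - δq) • Jm := by
  have e00 : (1 : F) * 1 + ε * εq = (δ - δq) * 0 := by linear_combination hε
  have e01 : (1 : F) * δ + ε * (εq * δq) = (δ - δq) * 1 := by linear_combination δq * hε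
  have e10 : δq * 1 + ε * δ * εq = (δ - δq) * (-1) := by linear_combination δ * hε
  have e11 : δq * δ + ε * δ * (εq * δq) = (δ - δq) * 0 := by linear_combination δ * δq * hε
  ext i j
  fin_cases i <;> fin_cases j
  · simpa [Jm, Matrix.mul_apply, Fin.sum_univ_two] using e00
  · simpa [Jm, Matrix.mul_apply, Fin.sum_univ_two] using e01
  · simpa [Jm, Matrix.mul_apply, Fin.sum_univ_two] using e10
  · simpa [Jm, Matrix.mul_apply, Fin.sum_univ_two] using e11

end

section
variable {F : Type*} [Field F] [Fintype F] {q : ℕ} {n : ℕ}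

omit [Fintype F] in
theorem herm_eq_dot (u v : Fin n → F) :
    Cfsg.hermForm n F q u v = u ⬝ᵥ (fun i => v i ^ q) := rfl

theorem frob_mulVec (hF : Fintype.card F = q ^ 2) (M : Matrix (Fin n) (Fin n) F)
    (v : Fin n → F) :
    (fun i => (M *ᵥ v) i ^ q) = (M.map (· ^ q)) *ᵥ (fun i => v i ^ q) := by
  funext i
  have h := RingHom.map_mulVec (ufrob hF) M v i
  have e1 : M.map (ufrob hF) = M.map (· ^ q) := by
    ext a b; simp [ufrob_apply]
  have e2 : (ufrob hF) ∘ v = fun i => v i ^ q := by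
    funext a; simp [ufrob_apply]
  rw [e1, e2, ufrob_apply] at h
  exact h

theorem herm_mul (hF : Fintype.card F = q ^ 2) (M : Matrix (Fin n) (Fin n) F)
    (u v : Fin n → F) :
    Cfsg.hermForm n F q (M *ᵥ u) (M *ᵥ v) =
      u ⬝ᵥ ((Mᵀ * M.map (· ^ q)) *ᵥ (fun i => v i ^ q)) := by
  rw [herm_eq_dot, frob_mulVec hF, ← Matrix.mulVec_mulVec]
  rw [Matrix.dotProduct_mulVec u Mᵀ, Matrix.vecMul_transpose]

theorem herm_pres_of (hF : Fintype.card F = q ^ 2) (M : Matrix (Fin n) (Fin n) F)
    (h : Mᵀ * M.map (· ^ q) = 1) (u v : Fin n → F) :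
    Cfsg.hermForm n F q (M *ᵥ u) (M *ᵥ v) = Cfsg.hermForm n F q u v := by
  rw [herm_mul hF, h, Matrix.one_mulVec]
  rfl

theorem herm_pres_iff (hF : Fintype.card F = q ^ 2) (M : Matrix (Fin n) (Fin n) F)
    (h : ∀ u v : Fin n → F,
      Cfsg.hermForm n F q (M *ᵥ u) (M *ᵥ v) = Cfsg.hermForm n F q u v) :
    Mᵀ * M.map (· ^ q) = 1 := by
  classical
  have key : ∀ u w : Fin n → F, u ⬝ᵥ ((Mᵀ * M.map (· ^ q)) *ᵥ w) = u ⬝ᵥ w := by
    intro u w
    have h1 := h u (fun i => w i ^ q)
    rw [herm_mul hF, herm_eq_dot] at h1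
    have e : (fun i => (fun i => w i ^ q) i ^ q) = w := by
      funext i; exact frob_frob hF _
    rw [e] at h1
    exact h1
  ext i j
  have h2 := key (Pi.single i 1) (Pi.single j 1)
  rw [Matrix.one_apply]
  by_cases hij : i = j
  · subst hij
    simpa using h2
  · simpa [hij, Pi.single_apply] using h2

end

section
variable {F : Type*} [Field F] [Fintype F] {q : ℕ}

/-- the fixed subfield of the Frobenius `x ↦ x ^ q` -/
def fixSubfield (hF : Fintype.card F = q ^ 2) : Subfield F where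
  carrier := {x | x ^ q = x}
  mul_mem' {a b} ha hb := by
    have ha' : a ^ q = a := ha
    have hb' : b ^ q = b := hb
    show (a * b) ^ q = a * b
    rw [mul_pow, ha', hb']
  one_mem' := one_pow q
  add_mem' {a b} ha hb := by
    have ha' : a ^ q = a := ha
    have hb' : b ^ q = b := hb
    show (a + b) ^ q = a + b
    rw [frob_add hF, ha', hb']
  zero_mem' := zero_pow (by have := uq_ge_two hF; omega)
  neg_mem' {a} ha := by
    have ha' : a ^ q = a := ha
    show (-a) ^ q = -a
    rw [frob_neg hF, ha']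
  inv_mem' a ha := by
    have ha' : a ^ q = a := ha
    show a⁻¹ ^ q = a⁻¹
    rw [inv_pow, ha']

theorem mem_fixSubfield (hF : Fintype.card F = q ^ 2) (x : F) :
    x ∈ fixSubfield hF ↔ x ^ q = x := Iff.rfl

theorem card_fixSubfield (hF : Fintype.card F = q ^ 2) : Nat.card (fixSubfield hF) = q := by
  obtain ⟨κ, hκ0, hκ⟩ := exists_trace_zero hF
  have hκq : κ ^ q = -κ := by linear_combination hκ
  have h0 : (0 : F) ^ q = 0 := zero_pow (by have := uq_ge_two hF; omega)
  refine (Nat.card_congr ?_).trans (card_trace_fiber hF 0 h0)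
  refine { toFun := fun a => ⟨κ * a.1, ?_⟩
           invFun := fun t => ⟨t.1 / κ, ?_⟩
           left_inv := ?_
           right_inv := ?_ }
  · have ha : a.1 ^ q = a.1 := a.2
    rw [mul_pow, hκq, ha]; ring
  · have ht : t.1 + t.1 ^ q = 0 := t.2
    have ht' : t.1 ^ q = -t.1 := by linear_combination ht
    show (t.1 / κ) ^ q = t.1 / κ
    rw [div_pow, hκq, ht', neg_div_neg_eq]
  · intro a
    apply Subtype.ext
    show κ * a.1 / κ = a.1
    field_simp
  · intro t
    apply Subtype.ext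
    show κ * (t.1 / κ) = t.1
    field_simp

end

theorem su2_equiv_sl2 {F K : Type*} [Field F] [Fintype F] [Field K] [Fintype K] {q : ℕ}
    (hF : Fintype.card F = q ^ 2) (hK : Fintype.card K = q) :
    Nonempty (Cfsg.SU 2 F q ≃* Matrix.SpecialLinearGroup (Fin 2) K) := by
  classical
  -- the embedding of `K`
  haveI : Fintype (fixSubfield hF) := Fintype.ofFinite _
  have hcard : Fintype.card K = Fintype.card (fixSubfield hF) := by
    rw [hK, Fintype.card_eq_nat_card]; exact (card_fixSubfield hF).symm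
  let e : K ≃+* fixSubfield hF := FiniteField.ringEquivOfCardEq hcard
  let ι : K →+* F := (fixSubfield hF).subtype.comp e.toRingHom
  have hι : ∀ k : K, ι k ^ q = ι k := fun k => (e k).2
  have hιsurj : ∀ x : F, x ^ q = x → ∃ k : K, ι k = x := by
    intro x hx
    refine ⟨e.symm ⟨x, hx⟩, ?_⟩
    show ((e (e.symm ⟨x, hx⟩) : fixSubfield hF) : F) = x
    rw [e.apply_symm_apply]
  have hιinj : Function.Injective ι := ι.injective
  -- parameters
  obtain ⟨δ, hδ⟩ := exists_frob_ne hF
  obtain ⟨ε, -, -, hε, -⟩ := exists_norm_neg_one_pair hF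
  have hε' : ε * ε ^ q = -1 := by rw [← pow_succ']; exact hε
  set κ : F := δ - δ ^ q with hκ
  have hκ0 : κ ≠ 0 := fun h => hδ (by linear_combination -h)
  have hε0 : ε ≠ 0 := by
    rintro rfl
    rw [zero_mul] at hε'
    exact one_ne_zero (by linear_combination hε' : (1 : F) = 0)
  set T : Matrix (Fin 2) (Fin 2) F := !![1, δ ^ q; ε, ε * δ] with hT
  have hTσ : T.map (· ^ q) = !![1, δ; ε ^ q, ε ^ q * δ ^ q] := by
    ext i j
    fin_cases i <;> fin_cases j <;> simp [hT, frob_frob hF, mul_pow]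
  have hgram : Tᵀ * T.map (· ^ q) = κ • Jm := by
    rw [hTσ]; exact T_gram δ (δ ^ q) ε (ε ^ q) hε'
  have hdetT : T.det = ε * κ := by
    rw [hT, Matrix.det_fin_two_of, hκ]; ring
  have hTu : IsUnit T.det := by rw [hdetT]; exact (mul_ne_zero hε0 hκ0).isUnit
  have hTT : T * T⁻¹ = 1 := Matrix.mul_nonsing_inv T hTu
  have hTT' : T⁻¹ * T = 1 := Matrix.nonsing_inv_mul T hTu
  -- the Frobenius on matrices
  set σ : Matrix (Fin 2) (Fin 2) F →+* Matrix (Fin 2) (Fin 2) F := (ufrob hF).mapMatrix with hσ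
  have hσmap : ∀ M : Matrix (Fin 2) (Fin 2) F, σ M = M.map (· ^ q) := by
    intro M; ext i j; simp [hσ, ufrob_apply]
  set P : Matrix (Fin 2) (Fin 2) F := (T⁻¹)ᵀ with hP
  set Q : Matrix (Fin 2) (Fin 2) F := σ T⁻¹ with hQ
  have hPT : Tᵀ * P = 1 := by rw [hP, ← Matrix.transpose_mul, hTT', Matrix.transpose_one]
  have hPT' : P * Tᵀ = 1 := by rw [hP, ← Matrix.transpose_mul, hTT, Matrix.transpose_one]
  have hQT : σ T * Q = 1 := by rw [hQ, ← map_mul, hTT, map_one]
  have hQT' : Q * σ T = 1 := by rw [hQ, ← map_mul, hTT', map_one]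
  have hgram' : Tᵀ * σ T = κ • Jm := by rw [hσmap]; exact hgram
  have hform : ∀ G : Matrix (Fin 2) (Fin 2) F,
      (T * G * T⁻¹)ᵀ * σ (T * G * T⁻¹) = P * (Gᵀ * (κ • Jm) * σ G) * Q := by
    intro G
    rw [hP, hQ, Matrix.transpose_mul, Matrix.transpose_mul, map_mul, map_mul, ← hgram']
    simp only [Matrix.mul_assoc]
  have hPJQ : P * (κ • Jm) * Q = 1 := by
    rw [← hgram']
    calc P * (Tᵀ * σ T) * Q = (P * Tᵀ) * (σ T * Q) := by simp only [Matrix.mul_assoc]
      _ = 1 := by rw [hPT', hQT, Matrix.one_mul]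
  -- conjugation by `T`
  let C : Matrix.SpecialLinearGroup (Fin 2) F →* Matrix.SpecialLinearGroup (Fin 2) F :=
    { toFun := fun A => ⟨T * A.1 * T⁻¹, by rw [Matrix.det_conj_of_mul_eq_one hTT hTT']; exact A.2⟩
      map_one' := by
        apply Subtype.ext
        show T * (1 : Matrix (Fin 2) (Fin 2) F) * T⁻¹ = 1
        rw [Matrix.mul_one, hTT]
      map_mul' := fun A B => by
        apply Subtype.ext
        show T * (A.1 * B.1) * T⁻¹ = (T * A.1 * T⁻¹) * (T * B.1 * T⁻¹)
        calc T * (A.1 * B.1) * T⁻¹ = T * A.1 * (1 * (B.1 * T⁻¹)) := by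
              simp only [Matrix.mul_assoc, Matrix.one_mul]
          _ = T * A.1 * (T⁻¹ * T * (B.1 * T⁻¹)) := by rw [hTT']
          _ = _ := by simp only [Matrix.mul_assoc] }
  let Ψ : Matrix.SpecialLinearGroup (Fin 2) K →* Matrix.SpecialLinearGroup (Fin 2) F :=
    C.comp (Matrix.SpecialLinearGroup.map ι)
  have hΨval : ∀ g : Matrix.SpecialLinearGroup (Fin 2) K,
      ((Ψ g : Matrix.SpecialLinearGroup (Fin 2) F) : Matrix (Fin 2) (Fin 2) F) =
        T * (g.1.map ι) * T⁻¹ := fun g => rfl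
  have hΨinj : Function.Injective Ψ := by
    intro g g' h
    have h1 : T * (g.1.map ι) * T⁻¹ = T * (g'.1.map ι) * T⁻¹ := by
      rw [← hΨval, ← hΨval, h]
    have h2 : g.1.map ι = g'.1.map ι := by
      calc g.1.map ι = T⁻¹ * T * (g.1.map ι) * (T⁻¹ * T) := by
            rw [hTT', Matrix.one_mul, Matrix.mul_one]
        _ = T⁻¹ * (T * (g.1.map ι) * T⁻¹) * T := by simp only [Matrix.mul_assoc]
        _ = T⁻¹ * (T * (g'.1.map ι) * T⁻¹) * T := by rw [h1]
        _ = T⁻¹ * T * (g'.1.map ι) * (T⁻¹ * T) := by simp only [Matrix.mul_assoc]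
        _ = g'.1.map ι := by rw [hTT', Matrix.one_mul, Matrix.mul_one]
    apply Subtype.ext
    exact Matrix.map_injective hιinj h2
  have hmem : ∀ A : Matrix.SpecialLinearGroup (Fin 2) F, A ∈ Cfsg.SU 2 F q ↔
      ∀ u v : Fin 2 → F, Cfsg.hermForm 2 F q (A.1 *ᵥ u) (A.1 *ᵥ v) = Cfsg.hermForm 2 F q u v :=
    fun A => Iff.rfl
  have hrange : Ψ.range = Cfsg.SU 2 F q := by
    ext A
    constructor
    · rintro ⟨g, rfl⟩
      rw [hmem]
      intro u v
      rw [hΨval]
      apply herm_pres_of hF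
      set G : Matrix (Fin 2) (Fin 2) F := g.1.map ι with hG
      have hGσ : σ G = G := by
        rw [hσmap]
        ext i j
        simp only [hG, Matrix.map_apply]
        exact hι _
      have hGdet : G.det = 1 := by
        have := (Matrix.SpecialLinearGroup.map ι g).2
        exact this
      rw [← hσmap, hform, hGσ]
      have : Gᵀ * (κ • Jm) * G = κ • Jm := by
        rw [Matrix.mul_smul, Matrix.smul_mul, J_form, hGdet, one_smul]
      rw [this, hPJQ]
    · intro hA
      rw [hmem] at hA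
      set M : Matrix (Fin 2) (Fin 2) F := A.1 with hM
      have hMM := herm_pres_iff hF M hA
      set G : Matrix (Fin 2) (Fin 2) F := T⁻¹ * M * T with hG
      have hTGT : T * G * T⁻¹ = M := by
        calc T * G * T⁻¹ = (T * T⁻¹) * M * (T * T⁻¹) := by
              rw [hG]; simp only [Matrix.mul_assoc]
          _ = M := by rw [hTT, Matrix.one_mul, Matrix.mul_one]
      have hGdet : G.det = 1 := by
        rw [hG, Matrix.det_conj_of_mul_eq_one hTT' hTT]; exact A.2
      have h1 : P * (Gᵀ * (κ • Jm) * σ G) * Q = 1 := by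
        rw [← hform, hTGT, hσmap]; exact hMM
      have h2 : Gᵀ * (κ • Jm) * σ G = κ • Jm := by
        calc Gᵀ * (κ • Jm) * σ G = (Tᵀ * P) * (Gᵀ * (κ • Jm) * σ G) * (Q * σ T) := by
              rw [hPT, hQT', Matrix.one_mul, Matrix.mul_one]
          _ = Tᵀ * (P * (Gᵀ * (κ • Jm) * σ G) * Q) * σ T := by simp only [Matrix.mul_assoc]
          _ = Tᵀ * σ T := by rw [h1, Matrix.mul_one]
          _ = κ • Jm := hgram'
      have h3 : Gᵀ * Jm * σ G = Jm := by
        have h4 : κ • (Gᵀ * Jm * σ G) = κ • Jm := by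
          rw [← h2, Matrix.mul_smul, Matrix.smul_mul]
        have h5 := congrArg (fun X : Matrix (Fin 2) (Fin 2) F => κ⁻¹ • X) h4
        simp only [smul_smul, inv_mul_cancel₀ hκ0, one_smul] at h5
        exact h5
      have h6 : σ G = G := J_cancel G (σ G) hGdet h3
      have hfix : ∀ i j, G i j ^ q = G i j := by
        intro i j
        have := congrFun (congrFun h6 i) j
        rw [hσmap] at this
        exact this
      choose g₀ hg₀ using fun i j => hιsurj (G i j) (hfix i j)
      have hg₀map : (Matrix.of g₀).map ι = G := by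
        ext i j
        exact hg₀ i j
      have hg₀det : (Matrix.of g₀).det = 1 := by
        apply hιinj
        rw [RingHom.map_det, RingHom.mapMatrix_apply, hg₀map, hGdet, map_one]
      refine ⟨(⟨Matrix.of g₀, hg₀det⟩ : Matrix.SpecialLinearGroup (Fin 2) K), ?_⟩
      apply Subtype.ext
      show T * ((Matrix.of g₀).map ι) * T⁻¹ = M
      rw [hg₀map, hTGT]
  exact ⟨(MulEquiv.subgroupCongr hrange.symm).trans (MonoidHom.ofInjective hΨinj).symm⟩

end Cfsg.Agent.Lib.helper6
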