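import Mathlib
import Cfsg.Agent.Lib.helper6.SE
import Cfsg.Agent.Lib.helper6.Fus
import Cfsg.Agent.Lib.helper6.Rank

set_option autoImplicit false

namespace Cfsg.Agent.Lib.helper6

/-- If involutions `a`, `b` have product of odd order, `a` centralizes `c` and `b` inverts `c`,
then `c` squares to one. -/
theorem sq_one_of_cent_inv {G : Type*} [Group G] {a b c : G} (ha : a * a = 1) (hb : b * b = 1)
    (hodd : Odd (orderOf (a * b))) (hac : a * c = c * a) (hbc : b * c * b⁻¹ = c⁻¹) :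
    c * c = 1 := by
  obtain ⟨i, -, hiab, hmem⟩ := exists_conj_invol_of_odd ha hb hodd
  have hP : ∀ g ∈ Subgroup.closure ({a, b} : Set G), g * c * g⁻¹ = c ∨ g * c * g⁻¹ = c⁻¹ := by
    intro g hg
    induction hg using Subgroup.closure_induction with
    | mem x hx =>
      rcases hx with rfl | rfl
      · left; rw [hac, mul_assoc, mul_inv_cancel, mul_one]
      · right; exact hbc
    | one => left; simp
    | mul x y _ _ hx hy =>
      have e : x * y * c * (x * y)⁻¹ = x * (y * c * y⁻¹) * x⁻¹ := by group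
      rw [e]
      rcases hy with hy | hy
      · rw [hy]; exact hx
      · rw [hy]
        have e2 : x * c⁻¹ * x⁻¹ = (x * c * x⁻¹)⁻¹ := by group
        rw [e2]
        rcases hx with hx | hx
        · rw [hx]; right; rfl
        · rw [hx, inv_inv]; left; rfl
    | inv x _ hx =>
      rcases hx with hx | hx
      · left
        calc x⁻¹ * c * x⁻¹⁻¹ = x⁻¹ * (x * c * x⁻¹) * x⁻¹⁻¹ := by rw [hx]
          _ = c := by group
      · right
        calc x⁻¹ * c * x⁻¹⁻¹ = (x⁻¹ * c⁻¹ * x⁻¹⁻¹)⁻¹ := by group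
          _ = (x⁻¹ * (x * c * x⁻¹) * x⁻¹⁻¹)⁻¹ := by rw [hx]
          _ = c⁻¹ := by group
  -- b commutes with i c i⁻¹
  have hbi : b * (i * c * i⁻¹) = (i * c * i⁻¹) * b := by
    rw [← hiab]
    have e1 : i * a * i⁻¹ * (i * c * i⁻¹) = i * (a * c) * i⁻¹ := by group
    have e2 : i * c * i⁻¹ * (i * a * i⁻¹) = i * (c * a) * i⁻¹ := by group
    rw [e1, e2, hac]
  have hbcomm : b * c = c * b := by
    rcases hP i hmem with h | h
    · rw [h] at hbi; exact hbi
    · rw [h] at hbi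
      have : c * b = b * c := by
        have e : c * (b * c⁻¹) * c = c * (c⁻¹ * b) * c := by rw [hbi]
        rw [show c * (b * c⁻¹) * c = c * b by group, show c * (c⁻¹ * b) * c = b * c by group] at e
        exact e
      exact this.symm
  have : c = c⁻¹ := by
    rw [← hbc, hbcomm, mul_assoc, mul_inv_cancel, mul_one]
  calc c * c = c * c⁻¹ := by rw [← this]
    _ = 1 := mul_inv_cancel c

/-- The standard criterion for strong embedding. -/
theorem se_of_cent_norm {G : Type*} [Group G] [Finite G] (M : Subgroup G)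
    (hM : Even (Nat.card M)) (hne : M ≠ ⊤)
    (hC : ∀ i ∈ M, orderOf i = 2 → Subgroup.centralizer ({i} : Set G) ≤ M)
    (X : Sylow 2 M) (I : G) (hI2 : orderOf I = 2)
    (hIX : ∀ x ∈ (X : Subgroup M), (x : G) * I = I * (x : G))
    (hN : Subgroup.normalizer (((X : Subgroup M).map M.subtype : Subgroup G) : Set G) ≤ M) :
    Cfsg.IsStronglyEmbedded M := by
  haveI : Fact (Nat.Prime 2) := ⟨Nat.prime_two⟩
  refine ⟨hne, hM, fun g hg => ?_⟩
  by_contra hodd
  rw [Nat.not_odd_iff_even] at hodd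
  obtain ⟨τ, hτ⟩ := exists_prime_orderOf_dvd_card' 2 (even_iff_two_dvd.mp hodd)
  have ht : orderOf (τ : G) = 2 := by rw [Subgroup.orderOf_coe]; exact hτ
  have htM : (τ : G) ∈ M := τ.2.1
  have htg : (τ : G) ∈ M.map (MulAut.conj g).toMonoidHom := τ.2.2
  set t : G := (τ : G) with htdef
  obtain ⟨t', ht'M, ht't⟩ := Subgroup.mem_map.mp htg
  have ht't' : g * t' * g⁻¹ = t := ht't
  have ht'2 : orderOf t' = 2 := by
    have : orderOf (g * t' * g⁻¹) = orderOf t' := (MulAut.conj g).orderOf_eq t'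
    rw [← this, ht't']; exact ht
  obtain ⟨m, hm⟩ := elem_conj_into X (⟨t', ht'M⟩ : ↥M) 1 (by rw [Subgroup.orderOf_mk, ht'2]; rfl)
  -- replace g by g m⁻¹
  set g₁ : G := g * (m : G)⁻¹ with hg₁
  have hg₁M : g₁ ∉ M := by
    intro h
    apply hg
    have : g = g₁ * (m : G) := by rw [hg₁, inv_mul_cancel_right]
    rw [this]; exact M.mul_mem h m.2
  set t'' : G := (m : G) * t' * (m : G)⁻¹ with ht''
  have hg₁t : g₁ * t'' * g₁⁻¹ = t := by
    rw [← ht't', hg₁, ht'']; group
  have hIt'' : t'' * I = I * t'' := hIX _ hm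
  set u : G := g₁ * I * g₁⁻¹ with hu
  have hu2 : orderOf u = 2 := orderOf_conj_two g₁ hI2
  have hut : u * t = t * u := by
    rw [hu, ← hg₁t]
    have e1 : g₁ * I * g₁⁻¹ * (g₁ * t'' * g₁⁻¹) = g₁ * (I * t'') * g₁⁻¹ := by group
    have e2 : g₁ * t'' * g₁⁻¹ * (g₁ * I * g₁⁻¹) = g₁ * (t'' * I) * g₁⁻¹ := by group
    rw [e1, e2, hIt'']
  have huM : u ∈ M := by
    apply hC t htM ht
    rw [Subgroup.mem_centralizer_iff]
    intro h hh
    rw [Set.mem_singleton_iff] at hh
    rw [hh]; exact hut.symm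
  -- the conjugate of X by g₁ lies in M
  set Xs : Subgroup G := (X : Subgroup M).map M.subtype with hXs
  have hXsM : ∀ x ∈ Xs, g₁ * x * g₁⁻¹ ∈ M := by
    intro x hx
    obtain ⟨x', hx', rfl⟩ := Subgroup.mem_map.mp hx
    apply hC u huM hu2
    rw [Subgroup.mem_centralizer_iff]
    intro h hh
    rw [Set.mem_singleton_iff] at hh
    rw [hh, hu]
    have hc := hIX x' hx'
    have e1 : g₁ * I * g₁⁻¹ * (g₁ * M.subtype x' * g₁⁻¹) = g₁ * (I * M.subtype x') * g₁⁻¹ := by
      group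
    have e2 : g₁ * M.subtype x' * g₁⁻¹ * (g₁ * I * g₁⁻¹) = g₁ * (M.subtype x' * I) * g₁⁻¹ := by
      group
    rw [e1, e2]
    have hc' : M.subtype x' * I = I * M.subtype x' := hc
    rw [hc']
  have hXs2 : IsPGroup 2 Xs := X.isPGroup'.map M.subtype
  set B : Subgroup G := Xs.map (MulAut.conj g₁).toMonoidHom with hB
  have hB2 : IsPGroup 2 B := hXs2.map _
  have hBM : B ≤ M := by
    intro b hb
    obtain ⟨x, hx, rfl⟩ := Subgroup.mem_map.mp hb
    exact hXsM x hx
  obtain ⟨k, hk⟩ := pgroup_conj_into X (B.subgroupOf M) hB2.comap_subtype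
  have hnorm : (k : G) * g₁ ∈ Subgroup.normalizer (Xs : Set G) := by
    apply mem_normalizer_of_conj_mem
    intro x hx
    have hb : g₁ * x * g₁⁻¹ ∈ B := Subgroup.mem_map.mpr ⟨x, hx, rfl⟩
    have h1 := hk ⟨g₁ * x * g₁⁻¹, hBM hb⟩ (by rw [Subgroup.mem_subgroupOf]; exact hb)
    rw [hXs, Subgroup.mem_map]
    refine ⟨_, h1, ?_⟩
    simp only [Subgroup.coe_subtype, Subgroup.coe_mul, Subgroup.coe_inv]
    group
  have := hN hnorm
  apply hg₁M
  have e : g₁ = (k : G)⁻¹ * ((k : G) * g₁) := by rw [inv_mul_cancel_left]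
  rw [e]; exact M.mul_mem (M.inv_mem k.2) this

/-- If `M` has even order, contains the centralizers of its involutions and has a normal core of
odd order, then some involution lies outside `M` and all involutions are conjugate. -/
theorem invol_conj_of_cent {G : Type*} [Group G] [Finite G] (M : Subgroup G)
    (hM : Even (Nat.card M))
    (hC : ∀ i ∈ M, orderOf i = 2 → Subgroup.centralizer ({i} : Set G) ≤ M)
    (hcore : Odd (Nat.card M.normalCore)) :
    (∃ j : G, orderOf j = 2 ∧ j ∉ M) ∧ ∀ x y : G, orderOf x = 2 → orderOf y = 2 → IsConj x y := by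
  haveI : Fact (Nat.Prime 2) := ⟨Nat.prime_two⟩
  obtain ⟨⟨i₀, hi₀M⟩, hi₀⟩ := exists_prime_orderOf_dvd_card' 2 (even_iff_two_dvd.mp hM)
  rw [Subgroup.orderOf_mk] at hi₀
  have hj : ∃ j : G, orderOf j = 2 ∧ j ∉ M := by
    by_contra hno
    push Not at hno
    have hmem : i₀ ∈ M.normalCore := by
      intro b
      exact hno _ (orderOf_conj_two b hi₀)
    have h2 : orderOf (⟨i₀, hmem⟩ : ↥M.normalCore) = 2 := by
      rw [Subgroup.orderOf_mk]; exact hi₀
    have hdvd : 2 ∣ Nat.card ↥M.normalCore := by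
      rw [← h2]; exact orderOf_dvd_natCard _
    rw [← Nat.not_even_iff_odd] at hcore
    exact hcore (even_iff_two_dvd.mpr hdvd)
  refine ⟨hj, ?_⟩
  obtain ⟨j, hj2, hjM⟩ := hj
  have key : ∀ a b : G, orderOf a = 2 → orderOf b = 2 → a ∈ M → b ∉ M → IsConj a b := by
    intro a b ha hb haM hbM
    have ha1 := mul_self_of_orderOf_two ha
    have hb1 := mul_self_of_orderOf_two hb
    rcases Nat.even_or_odd (orderOf (a * b)) with he | ho
    · exfalso
      obtain ⟨z, hz1, hzz, haz, hbz, -, -⟩ :=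
        exists_central_invol_of_even ha1 hb1 he (orderOf_pos _).ne'
      have hz2 : orderOf z = 2 := orderOf_two_of_mul_self hzz hz1
      have hzM : z ∈ M := by
        apply hC a haM ha
        rw [Subgroup.mem_centralizer_iff]
        intro h hh
        rw [Set.mem_singleton_iff] at hh
        rw [hh]; exact haz
      apply hbM
      apply hC z hzM hz2
      rw [Subgroup.mem_centralizer_iff]
      intro h hh
      rw [Set.mem_singleton_iff] at hh
      rw [hh]; exact hbz.symm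
    · obtain ⟨i, -, hi, -⟩ := exists_conj_invol_of_odd ha1 hb1 ho
      exact isConj_iff.mpr ⟨i, hi⟩
  intro x y hx hy
  by_cases hxM : x ∈ M <;> by_cases hyM : y ∈ M
  · exact (key x j hx hj2 hxM hjM).trans (key y j hy hj2 hyM hjM).symm
  · exact key x y hx hy hxM hyM
  · exact (key y x hy hx hyM hxM).symm
  · exact (key i₀ x hi₀ hx hi₀M hxM).symm.trans (key i₀ y hi₀ hy hi₀M hyM)

/-- In a strongly embedded subgroup `M`, with `u` an involution outside `M`, every involution of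
`M` is conjugate to a fixed involution `I` of `M` by an element of `M ∩ M^u`. -/
theorem se_trans_lemma {G : Type*} [Group G] [Finite G] (M : Subgroup G)
    (hse : Cfsg.IsStronglyEmbedded M) (u : G) (hu2 : orderOf u = 2) (huM : u ∉ M)
    (I : G) (hIM : I ∈ M) (hI2 : orderOf I = 2) :
    ∀ t ∈ M, orderOf t = 2 →
      ∃ h ∈ M ⊓ M.map (MulAut.conj u).toMonoidHom, h * I * h⁻¹ = t := by
  have hu1 := mul_self_of_orderOf_two hu2
  have hI1 := mul_self_of_orderOf_two hI2
  set x : G ⧸ M := QuotientGroup.mk 1 with hx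
  set y : G ⧸ M := QuotientGroup.mk u with hy
  have hxy : x ≠ y := by
    intro h
    rw [hx, hy, QuotientGroup.eq, inv_one, one_mul] at h
    exact huM h
  have hcount := se_count hse x y hxy
  have hmemM : ∀ i : G, i • x = y → u⁻¹ * i ∈ M := by
    intro i hi
    rw [hx, hy, MulAction.Quotient.smul_mk, QuotientGroup.eq, smul_eq_mul, mul_one] at hi
    have e : u⁻¹ * i = (i⁻¹ * u)⁻¹ := by group
    rw [e]; exact M.inv_mem hi
  have hnotM : ∀ i : G, i • x = y → i ∉ M := by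
    intro i hi hiM
    apply huM
    have h1 := hmemM i hi
    have e : u = i * (u⁻¹ * i)⁻¹ := by group
    rw [e]; exact M.mul_mem hiM (M.inv_mem h1)
  let Φ : {i : G // orderOf i = 2 ∧ i • x = y} → {t : G // orderOf t = 2 ∧ t ∈ M} := fun i =>
    ⟨(u⁻¹ * i.1) * I * (u⁻¹ * i.1)⁻¹, orderOf_conj_two _ hI2,
      M.mul_mem (M.mul_mem (hmemM i.1 i.2.2) hIM) (M.inv_mem (hmemM i.1 i.2.2))⟩
  have hΦinj : Function.Injective Φ := by
    rintro ⟨i, hi2, hix⟩ ⟨i', hi'2, hi'x⟩ h
    have h' : (u⁻¹ * i) * I * (u⁻¹ * i)⁻¹ = (u⁻¹ * i') * I * (u⁻¹ * i')⁻¹ :=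
      congrArg Subtype.val h
    have hi1 := mul_self_of_orderOf_two hi2
    have hi'1 := mul_self_of_orderOf_two hi'2
    have hiinv : i⁻¹ = i := inv_eq_self_of_mul_self hi1
    have hi'inv : i'⁻¹ = i' := inv_eq_self_of_mul_self hi'1
    set c : G := i * i' with hc
    have hcM : c ∈ M := by
      have e : c = (u⁻¹ * i)⁻¹ * (u⁻¹ * i') := by rw [hc]; nth_rewrite 1 [← hiinv]; group
      rw [e]; exact M.mul_mem (M.inv_mem (hmemM i hix)) (hmemM i' hi'x)
    have hcI : I * c = c * I := by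
      have e : c = (u⁻¹ * i)⁻¹ * (u⁻¹ * i') := by rw [hc]; nth_rewrite 1 [← hiinv]; group
      have e3 : I = (u⁻¹ * i)⁻¹ * ((u⁻¹ * i') * I * (u⁻¹ * i')⁻¹) * (u⁻¹ * i) := by
        rw [← h']; group
      have e4 : I * ((u⁻¹ * i)⁻¹ * (u⁻¹ * i')) = (u⁻¹ * i)⁻¹ * (u⁻¹ * i') * I := by
        nth_rewrite 1 [e3]; group
      rw [e]; exact e4
    have hic : i * c * i⁻¹ = c⁻¹ := by
      rw [hc, mul_inv_rev, hiinv, hi'inv, ← mul_assoc, hi1, one_mul]
    have hodd : Odd (orderOf (I * i)) := by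
      rw [← Nat.not_even_iff_odd]
      exact fun he => hnotM i hix (se_mem_of_even hse hI2 hi2 hIM he)
    have hcc : c * c = 1 := sq_one_of_cent_inv hI1 hi1 hodd hcI hic
    have hc1 : c = 1 := by
      by_contra hne
      have hc2 : orderOf c = 2 := orderOf_two_of_mul_self hcc hne
      apply hnotM i hix
      apply se_mem_of_conj_mem hse hc2 hcM
      rw [hic, inv_eq_self_of_mul_self hcc]; exact hcM
    have : i = i' := by
      have e : i' = i⁻¹ * c := by rw [hc, inv_mul_cancel_left]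
      rw [e, hc1, mul_one, hiinv]
    subst this; rfl
  have hΦbij : Function.Bijective Φ :=
    hΦinj.bijective_of_nat_card_le (le_of_eq hcount.symm)
  intro t htM ht2
  obtain ⟨⟨i, hi2, hix⟩, hi⟩ := hΦbij.2 ⟨t, ht2, htM⟩
  have hi' : (u⁻¹ * i) * I * (u⁻¹ * i)⁻¹ = t := congrArg Subtype.val hi
  refine ⟨u⁻¹ * i, ⟨hmemM i hix, ?_⟩, hi'⟩
  show u⁻¹ * i ∈ M.map (MulAut.conj u).toMonoidHom
  rw [Subgroup.mem_map]
  refine ⟨(u⁻¹ * i)⁻¹, M.inv_mem (hmemM i hix), ?_⟩
  have hi1 := mul_self_of_orderOf_two hi2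
  have hiinv : i⁻¹ = i := inv_eq_self_of_mul_self hi1
  have huinv : u⁻¹ = u := inv_eq_self_of_mul_self hu1
  show u * (u⁻¹ * i)⁻¹ * u⁻¹ = u⁻¹ * i
  rw [mul_inv_rev, inv_inv, hiinv, huinv, mul_assoc, mul_assoc, hu1, mul_one]

end Cfsg.Agent.Lib.helper6
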