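import Mathlib
import Cfsg.Prelude.Def_Transfer

set_option autoImplicit false

namespace Cfsg.Agent.Lib.helper6

/-- Generalised Thompson transfer via the sign of a coset action: if `c` has order `2^k`,
`T` has index `m * 2^k` with `m` odd and the involution of `⟨c⟩` has no conjugate in `T`, then
`c` lies outside a subgroup of index two. -/
theorem perm_index_two {G : Type*} [Group G] [Finite G] (T : Subgroup G) (c : G) (k : ℕ)
    (hk : 1 ≤ k) (hc : orderOf c = 2 ^ k) (m : ℕ) (hm : Odd m) (hT : T.index = m * 2 ^ k)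
    (hfix : ∀ g : G, g * c ^ (2 ^ (k - 1)) * g⁻¹ ∉ T) :
    ∃ N : Subgroup G, N.index = 2 ∧ c ∉ N := by
  classical
  haveI : Fintype (G ⧸ T) := Fintype.ofFinite _
  let φ : G →* Equiv.Perm (G ⧸ T) := MulAction.toPermHom G (G ⧸ T)
  set σ : Equiv.Perm (G ⧸ T) := φ c with hσ
  set N₀ : ℕ := 2 ^ (k - 1) with hN₀
  have h0 : ∀ x : G ⧸ T, (σ ^ N₀) x ≠ x := by
    intro x hx
    induction x using QuotientGroup.induction_on with
    | H g =>
      have e1 : (σ ^ N₀) (QuotientGroup.mk g : G ⧸ T) = (c ^ N₀) • (QuotientGroup.mk g : G ⧸ T) := by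
        rw [hσ, ← map_pow]; rfl
      rw [e1, MulAction.Quotient.smul_mk, QuotientGroup.eq, smul_eq_mul] at hx
      have e2 : (c ^ N₀ * g)⁻¹ * g = (g⁻¹ * c ^ N₀ * g⁻¹⁻¹)⁻¹ := by group
      rw [e2, inv_mem_iff] at hx
      exact hfix g⁻¹ hx
  have h1 : σ ^ (2 ^ k) = 1 := by
    rw [hσ, ← map_pow, ← hc, pow_orderOf_eq_one, map_one]
  have hN₀k : N₀ * 2 = 2 ^ k := by
    rw [hN₀, ← pow_succ]; congr 1; omega
  have h2 : ∀ n ∈ σ.cycleType, n = 2 ^ k := by
    intro n hn
    have hdvd : n ∣ 2 ^ k := (Equiv.Perm.dvd_of_mem_cycleType hn).trans (orderOf_dvd_of_pow_eq_one h1)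
    obtain ⟨j, hj, rfl⟩ := (Nat.dvd_prime_pow Nat.prime_two).mp hdvd
    rcases Nat.lt_or_ge j k with hlt | hge
    · exfalso
      have hdvd2 : 2 ^ j ∣ N₀ := by
        rw [hN₀]; exact pow_dvd_pow 2 (by omega)
      obtain ⟨c', τ, hστ, hdisj, hcyc, hcard⟩ := Equiv.Perm.mem_cycleType_iff.mp hn
      obtain ⟨x, hx, -⟩ := id hcyc
      have hτx : τ x = x := by
        rcases hdisj x with h | h
        · exact absurd h hx
        · exact h
      have hc'N : c' ^ N₀ = 1 := by
        apply orderOf_dvd_iff_pow_eq_one.mp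
        rw [hcyc.orderOf, hcard]; exact hdvd2
      have : (σ ^ N₀) x = x := by
        rw [hστ, hdisj.commute.mul_pow, hc'N, one_mul]
        exact Equiv.Perm.pow_apply_eq_self_of_apply_eq_self hτx N₀
      exact h0 x this
    · have : j = k := le_antisymm hj hge
      rw [this]
  have h3 : σ.support = Finset.univ := by
    ext x
    simp only [Equiv.Perm.mem_support, Finset.mem_univ, iff_true]
    intro hx
    exact h0 x (Equiv.Perm.pow_apply_eq_self_of_apply_eq_self hx N₀)
  have h4 : σ.cycleType = Multiset.replicate (Multiset.card σ.cycleType) (2 ^ k) :=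
    Multiset.eq_replicate_card.mpr h2
  have h5 : Multiset.card σ.cycleType = m := by
    have hs := Equiv.Perm.sum_cycleType σ
    rw [h3, h4, Multiset.sum_replicate, Finset.card_univ, smul_eq_mul] at hs
    have hcardΩ : Fintype.card (G ⧸ T) = m * 2 ^ k := by
      rw [← hT, Subgroup.index, Nat.card_eq_fintype_card]
    rw [hcardΩ] at hs
    exact Nat.eq_of_mul_eq_mul_right (by positivity) hs
  have h6 : Equiv.Perm.sign σ = -1 := by
    rw [Equiv.Perm.sign_of_cycleType, h4, Multiset.sum_replicate, Multiset.card_replicate, h5,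
      smul_eq_mul]
    have he : Even (2 ^ k) := by
      obtain ⟨k', rfl⟩ : ∃ k', k = k' + 1 := ⟨k - 1, by omega⟩
      exact ⟨2 ^ k', by ring⟩
    have ho : Odd (m * 2 ^ k + m) := (he.mul_left m).add_odd hm
    exact ho.neg_one_pow
  let ψ : G →* ℤˣ := Equiv.Perm.sign.comp φ
  have hψc : ψ c = -1 := h6
  refine ⟨ψ.ker, ?_, ?_⟩
  · rw [Subgroup.index_ker]
    have hr : ψ.range = ⊤ := by
      rw [eq_top_iff]
      intro u _
      rcases Int.units_eq_one_or u with h | h
      · rw [h]; exact one_mem _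
      · rw [h]; exact ⟨c, hψc⟩
    rw [hr, Subgroup.card_top, Nat.card_eq_fintype_card, Fintype.card_units_int]
  · rw [MonoidHom.mem_ker, hψc]
    decide

theorem h6_card_mul_relIndex {G : Type*} [Group G] (A B : Subgroup G) (h : A ≤ B) :
    Nat.card A * A.relIndex B = Nat.card B := by
  rw [← Subgroup.relIndex_bot_left (H := A), ← Subgroup.relIndex_bot_left (H := B)]
  exact Subgroup.relIndex_mul_relIndex ⊥ A B bot_le h

theorem h6_relIndex_sup_normal {G : Type*} [Group G] [Finite G] (H M : Subgroup G) [M.Normal] :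
    H.relIndex (H ⊔ M) = H.relIndex M := by
  have h1 : Nat.card H * H.relIndex (H ⊔ M) = Nat.card (H ⊔ M : Subgroup G) :=
    h6_card_mul_relIndex H (H ⊔ M) le_sup_left
  have h2 : Nat.card M * M.relIndex (H ⊔ M) = Nat.card (H ⊔ M : Subgroup G) :=
    h6_card_mul_relIndex M (H ⊔ M) le_sup_right
  have h3 : M.relIndex (H ⊔ M) = M.relIndex H := Subgroup.relIndex_sup_right H M
  have h4 : Nat.card (H ⊓ M : Subgroup G) * (H ⊓ M).relIndex M = Nat.card M :=
    h6_card_mul_relIndex _ _ inf_le_right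
  have h5 : Nat.card (H ⊓ M : Subgroup G) * (H ⊓ M).relIndex H = Nat.card H :=
    h6_card_mul_relIndex _ _ inf_le_left
  have h6 : (H ⊓ M).relIndex M = H.relIndex M := Subgroup.inf_relIndex_right H M
  have h7 : (H ⊓ M).relIndex H = M.relIndex H := Subgroup.inf_relIndex_left H M
  have hpos : 0 < Nat.card H := Nat.card_pos
  apply Nat.eq_of_mul_eq_mul_left hpos
  rw [h1, ← h2, h3, ← h4, ← h5, h6, h7]
  ring

theorem h6_relIndex_dvd_index_normal {G : Type*} [Group G] [Finite G] (H M : Subgroup G)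
    [M.Normal] : H.relIndex M ∣ H.index := by
  rw [← h6_relIndex_sup_normal H M]
  exact Subgroup.relIndex_dvd_index_of_le le_sup_left

/-- A product decomposition is unique when the factors meet trivially. -/
theorem mul_inj_of_inf_bot {G : Type*} [Group G] (A B : Subgroup G) (h : B ⊓ A = ⊥)
    {a a' b b' : G} (ha : a ∈ A) (ha' : a' ∈ A) (hb : b ∈ B) (hb' : b' ∈ B)
    (he : a * b = a' * b') : a = a' ∧ b = b' := by
  have hmem : a'⁻¹ * a ∈ B ⊓ A := by
    refine ⟨?_, A.mul_mem (A.inv_mem ha') ha⟩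
    have : a'⁻¹ * a = b' * b⁻¹ := by
      rw [eq_mul_inv_iff_mul_eq, mul_assoc, he, inv_mul_cancel_left]
    rw [this]; exact B.mul_mem hb' (B.inv_mem hb)
  rw [h, Subgroup.mem_bot, inv_mul_eq_one] at hmem
  subst hmem
  exact ⟨rfl, mul_left_cancel he⟩

theorem pres_normal (p : ℕ) (G : Type*) [Group G] : (Cfsg.pResidual p G).Normal := by
  constructor
  intro n hn g
  induction hn using Subgroup.closure_induction with
  | mem x hx =>
    apply Subgroup.subset_closure
    show Nat.Coprime (orderOf (g * x * g⁻¹)) p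
    have : orderOf (g * x * g⁻¹) = orderOf x := (MulAut.conj g).orderOf_eq x
    rw [this]; exact hx
  | one => simp
  | mul x y _ _ hx hy =>
    have : g * (x * y) * g⁻¹ = (g * x * g⁻¹) * (g * y * g⁻¹) := by group
    rw [this]; exact mul_mem hx hy
  | inv x _ hx =>
    have : g * x⁻¹ * g⁻¹ = (g * x * g⁻¹)⁻¹ := by group
    rw [this]; exact inv_mem hx

theorem pres_le_index_two {G : Type*} [Group G] (N : Subgroup G) (hN : N.index = 2) :
    Cfsg.pResidual 2 G ≤ N := by
  unfold Cfsg.pResidual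
  rw [Subgroup.closure_le]
  intro g hg
  have hg' : Nat.Coprime (orderOf g) 2 := hg
  have hodd : Odd (orderOf g) := by
    rw [← Nat.not_even_iff_odd, even_iff_two_dvd]
    intro h2
    have := Nat.Coprime.eq_one_of_dvd hg'.symm h2
    omega
  obtain ⟨q, hq⟩ := hodd
  have e1 : g = (g ^ 2) ^ (q + 1) := by
    rw [← pow_mul]
    have : 2 * (q + 1) = orderOf g + 1 := by omega
    rw [this, pow_succ, pow_orderOf_eq_one, one_mul]
  show g ∈ N
  rw [e1]
  exact N.pow_mem (Subgroup.sq_mem_of_index_two hN g) _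

theorem pres_top_of_pres (G : Type*) [Group G] :
    Cfsg.pResidual 2 ↥(Cfsg.pResidual 2 G) = ⊤ := by
  have key : Cfsg.pResidual 2 G ≤
      (Cfsg.pResidual 2 ↥(Cfsg.pResidual 2 G)).map (Cfsg.pResidual 2 G).subtype := by
    conv_lhs => unfold Cfsg.pResidual
    rw [Subgroup.closure_le]
    intro g hg
    have hgR : g ∈ Cfsg.pResidual 2 G := Subgroup.subset_closure hg
    refine ⟨⟨g, hgR⟩, ?_, rfl⟩
    apply Subgroup.subset_closure
    show Nat.Coprime (orderOf (⟨g, hgR⟩ : ↥(Cfsg.pResidual 2 G))) 2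
    rw [Subgroup.orderOf_mk]; exact hg
  rw [eq_top_iff]
  rintro ⟨x, hx⟩ -
  obtain ⟨y, hy, hyx⟩ := key hx
  have : y = ⟨x, hx⟩ := Subtype.ext hyx
  rw [← this]; exact hy

theorem le_pres_of_pres_top {G : Type*} [Group G] (L : Subgroup G)
    (hL : Cfsg.pResidual 2 ↥L = ⊤) : L ≤ Cfsg.pResidual 2 G := by
  intro l hl
  have h1 : (⟨l, hl⟩ : ↥L) ∈ Cfsg.pResidual 2 ↥L := by rw [hL]; exact Subgroup.mem_top _
  have key : ∀ y ∈ Cfsg.pResidual 2 ↥L, (y : G) ∈ Cfsg.pResidual 2 G := by
    intro y hy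
    induction hy using Subgroup.closure_induction with
    | mem x hx =>
      apply Subgroup.subset_closure
      show Nat.Coprime (orderOf (x : G)) 2
      rw [Subgroup.orderOf_coe]; exact hx
    | one => exact Subgroup.one_mem _
    | mul x y _ _ hx hy => exact Subgroup.mul_mem _ hx hy
    | inv x _ hx => exact Subgroup.inv_mem _ hx
  exact key _ h1

theorem pres_index_pow (G : Type*) [Group G] [Finite G] :
    ∃ k : ℕ, (Cfsg.pResidual 2 G).index = 2 ^ k := by
  haveI : Fact (Nat.Prime 2) := ⟨Nat.prime_two⟩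
  haveI := pres_normal 2 G
  have hp : IsPGroup 2 (G ⧸ Cfsg.pResidual 2 G) := by
    intro q
    obtain ⟨g, rfl⟩ := QuotientGroup.mk_surjective q
    obtain ⟨k, m, hm, hkm⟩ := Nat.exists_eq_two_pow_mul_odd (orderOf_pos g).ne'
    refine ⟨k, ?_⟩
    rw [← QuotientGroup.mk_pow, QuotientGroup.eq_one_iff]
    apply Subgroup.subset_closure
    show Nat.Coprime (orderOf (g ^ 2 ^ k)) 2
    have hne : 2 ^ k ≠ 0 := by positivity
    rw [orderOf_pow_of_dvd hne ⟨m, hkm⟩, hkm, Nat.mul_div_cancel_left m (Nat.pos_of_ne_zero hne)]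
    exact Nat.coprime_two_right.mpr hm
  obtain ⟨k, hk⟩ := IsPGroup.iff_card.mp hp
  exact ⟨k, hk⟩

/-- Two `2`-subgroups of odd relative index in `L` have the same order. -/
theorem card_eq_of_odd_relIndex {G : Type*} [Group G] [Finite G] (L T T' : Subgroup G)
    (hTL : T ≤ L) (hT2 : IsPGroup 2 T) (hTsyl : ¬ 2 ∣ T.relIndex L)
    (hTL' : T' ≤ L) (hT2' : IsPGroup 2 T') (hTsyl' : ¬ 2 ∣ T'.relIndex L) :
    Nat.card T = Nat.card T' := by
  haveI : Fact (Nat.Prime 2) := ⟨Nat.prime_two⟩
  obtain ⟨a, ha⟩ := IsPGroup.iff_card.mp hT2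
  obtain ⟨b, hb⟩ := IsPGroup.iff_card.mp hT2'
  have e1 := h6_card_mul_relIndex T L hTL
  have e2 := h6_card_mul_relIndex T' L hTL'
  rw [ha] at e1
  rw [hb] at e2
  have c1 : Nat.Coprime (2 ^ a) (T'.relIndex L) :=
    Nat.Coprime.pow_left a ((Nat.Prime.coprime_iff_not_dvd Nat.prime_two).mpr hTsyl')
  have c2 : Nat.Coprime (2 ^ b) (T.relIndex L) :=
    Nat.Coprime.pow_left b ((Nat.Prime.coprime_iff_not_dvd Nat.prime_two).mpr hTsyl)
  have d1 : 2 ^ a ∣ 2 ^ b := by
    apply c1.dvd_of_dvd_mul_right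
    rw [e2, ← e1]; exact dvd_mul_right _ _
  have d2 : 2 ^ b ∣ 2 ^ a := by
    apply c2.dvd_of_dvd_mul_right
    rw [e1, ← e2]; exact dvd_mul_right _ _
  rw [ha, hb]
  exact Nat.dvd_antisymm d1 d2

theorem zmod2_add_self : ∀ i : ZMod 2, i + i = 0 := by decide

/-- In a dihedral group, every element outside a cyclic subgroup of index two is an
involution. -/
theorem dih_outside {G : Type*} [Group G] (D C : Subgroup G) (n : ℕ) (hn : 2 ≤ n)
    (e : ↥D ≃* DihedralGroup n) (hCD : C ≤ D) (hC : IsCyclic ↥C) (hCi : C.relIndex D = 2)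
    (y : G) (hyD : y ∈ D) (hyC : y ∉ C) : orderOf y = 2 := by
  haveI : Fact (Nat.Prime 2) := ⟨Nat.prime_two⟩
  have hy' : orderOf y = orderOf (e ⟨y, hyD⟩) := by
    rw [MulEquiv.orderOf_eq, Subgroup.orderOf_mk]
  rcases hey : e ⟨y, hyD⟩ with i | i
  · rcases Nat.lt_or_ge 2 n with h3 | h2
    · exfalso
      obtain ⟨g, hg⟩ := IsCyclic.exists_generator (α := ↥C)
      set g' : ↥D := ⟨g, hCD g.2⟩ with hg'
      set y' : ↥D := ⟨y, hyD⟩ with hy'def
      have hidx : (C.subgroupOf D).index = 2 := hCi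
      have hy'C : y' ∉ C.subgroupOf D := by rw [Subgroup.mem_subgroupOf]; exact hyC
      have hg'C : g' ∈ C.subgroupOf D := by rw [Subgroup.mem_subgroupOf]; exact g.2
      have hpow : ∀ x ∈ C.subgroupOf D, ∃ k : ℤ, x = g' ^ k := by
        intro x hx
        rw [Subgroup.mem_subgroupOf] at hx
        obtain ⟨k, hk⟩ := Subgroup.mem_zpowers_iff.mp (hg ⟨x, hx⟩)
        refine ⟨k, ?_⟩
        apply Subtype.ext
        have h1 := congrArg (fun z : ↥C => (z : G)) hk
        simp only [Subgroup.coe_zpow] at h1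
        rw [Subgroup.coe_zpow]; exact h1.symm
      have hcomm : g' * y' = y' * g' := by
        rcases heg : e g' with j | j
        · apply e.injective
          rw [map_mul, map_mul, heg, hey, DihedralGroup.r_mul_r, DihedralGroup.r_mul_r, add_comm]
        · have hg2 : g' * g' = 1 := by
            apply e.injective
            rw [map_mul, heg, map_one, DihedralGroup.sr_mul_sr, sub_self]; rfl
          haveI : (C.subgroupOf D).Normal := Subgroup.normal_of_index_eq_two hidx
          have hconj : y' * g' * y'⁻¹ ∈ C.subgroupOf D :=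
            Subgroup.Normal.conj_mem inferInstance g' hg'C y'
          obtain ⟨k, hk⟩ := hpow _ hconj
          have hk2 : g' ^ k = 1 ∨ g' ^ k = g' := by
            rcases Int.even_or_odd' k with ⟨q, rfl | rfl⟩
            · left; rw [zpow_mul, zpow_two, hg2, one_zpow]
            · right; rw [zpow_add, zpow_mul, zpow_two, hg2, one_zpow, one_mul, zpow_one]
          rcases hk2 with h | h
          · rw [h, mul_inv_eq_one] at hk
            have : g' = 1 := mul_left_cancel (a := y') (by rw [hk, mul_one])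
            rw [this, one_mul, mul_one]
          · rw [h, mul_inv_eq_iff_eq_mul] at hk
            exact hk.symm
      have hall : ∀ d : ↥D, ∃ k : ℤ, d = g' ^ k ∨ d = y' * g' ^ k := by
        intro d
        by_cases hd : d ∈ C.subgroupOf D
        · obtain ⟨k, hk⟩ := hpow d hd; exact ⟨k, Or.inl hk⟩
        · have : y'⁻¹ * d ∈ C.subgroupOf D := by
            rw [Subgroup.mul_mem_iff_of_index_two hidx]
            constructor
            · intro h; exact absurd ((inv_mem_iff).mp h) hy'C
            · intro h; exact absurd h hd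
          obtain ⟨k, hk⟩ := hpow _ this
          exact ⟨k, Or.inr (by rw [← hk, mul_inv_cancel_left])⟩
      have hgy : Commute g' y' := hcomm
      have hab : ∀ a b : ↥D, a * b = b * a := by
        intro a b
        obtain ⟨k, ha | ha⟩ := hall a <;> obtain ⟨l, hb | hb⟩ := hall b
        · rw [ha, hb]; exact ((Commute.refl g').zpow_zpow k l).eq
        · rw [ha, hb]
          exact ((hgy.zpow_left k).mul_right ((Commute.refl g').zpow_zpow k l)).eq
        · rw [ha, hb]
          exact ((hgy.zpow_left l).symm.mul_left ((Commute.refl g').zpow_zpow k l)).eq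
        · rw [ha, hb]
          have c1 : Commute y' (y' * g' ^ l) :=
            (Commute.refl y').mul_right (hgy.symm.zpow_right l)
          have c2 : Commute (g' ^ k) (y' * g' ^ l) :=
            (hgy.zpow_left k).mul_right ((Commute.refl g').zpow_zpow k l)
          exact (c1.mul_left c2).eq
      have hbad := hab (e.symm (DihedralGroup.r 1)) (e.symm (DihedralGroup.sr 0))
      have hbad' := congrArg e hbad
      rw [map_mul, map_mul, e.apply_symm_apply, e.apply_symm_apply, DihedralGroup.r_mul_sr,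
        DihedralGroup.sr_mul_r] at hbad'
      have h01 : (0 : ZMod n) - 1 = 0 + 1 := by injection hbad'
      have h20 : ((2 : ℕ) : ZMod n) = 0 := by
        have : (2 : ZMod n) = 0 := by linear_combination -h01
        exact_mod_cast this
      have hdvd := (ZMod.natCast_eq_zero_iff 2 n).mp h20
      have := Nat.le_of_dvd (by norm_num) hdvd
      omega
    · have hn2 : n = 2 := le_antisymm h2 hn
      subst hn2
      have hyy : y * y = 1 := by
        have : (⟨y, hyD⟩ : ↥D) * ⟨y, hyD⟩ = 1 := by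
          apply e.injective
          rw [map_mul, hey, map_one, DihedralGroup.r_mul_r]
          rw [zmod2_add_self i]; rfl
        exact congrArg Subtype.val this
      have hy1 : y ≠ 1 := fun h => hyC (h ▸ C.one_mem)
      exact orderOf_eq_prime (by rw [pow_two]; exact hyy) hy1
  · rw [hy', hey]; exact DihedralGroup.orderOf_sr i

end Cfsg.Agent.Lib.helper6
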